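import Mathlib
import Cfsg.Agent.PermGroups.NormalSubgroup

/-!
Orbits of a normal subgroup of a triply transitive group on triples.
-/

set_option autoImplicit false
set_option linter.unusedSectionVars false

open MulAction

namespace CfsgLib.TripleOrbits

/-- A triply transitive faithful action and a normal subgroup which is doubly transitive. -/
structure Triple (G Ω : Type*) [Group G] [MulAction G Ω] (H : Subgroup G) : Prop where
  faithful : ∀ g : G, (∀ y : Ω, g • y = y) → g = 1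
  three : ∀ a b c a' b' c' : Ω, a ≠ b → a ≠ c → b ≠ c → a' ≠ b' → a' ≠ c' → b' ≠ c' →
    ∃ g : G, g • a = a' ∧ g • b = b' ∧ g • c = c'
  normal : H.Normal
  two : ∀ a b c d : Ω, a ≠ b → c ≠ d → ∃ h ∈ H, h • a = c ∧ h • b = d

variable {G Ω : Type*} [Group G] [MulAction G Ω] {H : Subgroup G}

/-- The elements of `H` fixing two points. -/
def pairIn (H : Subgroup G) (a b : Ω) : Subgroup G := H ⊓ (stabilizer G a ⊓ stabilizer G b)

theorem mem_pairIn {a b : Ω} {g : G} : g ∈ pairIn H a b ↔ g ∈ H ∧ g • a = a ∧ g • b = b := Iff.rfl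

/-- Every triple beginning with `a, b` is in the orbit of `(a, b, c)` or of `(a, b, d)`. -/
def Covers (H : Subgroup G) (a b c d : Ω) : Prop :=
  c ≠ a ∧ c ≠ b ∧ d ≠ a ∧ d ≠ b ∧
    ∀ x, x ≠ a → x ≠ b → ∃ e ∈ pairIn H a b, e • c = x ∨ e • d = x

theorem Triple.card_quot_le (T : Triple G Ω H) [Finite Ω] {a b c d : Ω} (hab : a ≠ b)
    (hC : Covers H a b c d) : Nat.card (orbitRel.Quotient ↥H (Fin 3 ↪ Ω)) ≤ 2 := by
  classical
  obtain ⟨hca, hcb, hda, hdb, hC⟩ := hC
  have inj : ∀ {u v w : Ω}, u ≠ v → u ≠ w → v ≠ w → Function.Injective ![u, v, w] := by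
    intro u v w h1 h2 h3 i j hij
    fin_cases i <;> fin_cases j <;> first
      | rfl
      | exact absurd hij h1
      | exact absurd hij h1.symm
      | exact absurd hij h2
      | exact absurd hij h2.symm
      | exact absurd hij h3
      | exact absurd hij h3.symm
  let t : Fin 2 → orbitRel.Quotient ↥H (Fin 3 ↪ Ω) :=
    ![Quotient.mk'' ⟨![a, b, c], inj hab hca.symm hcb.symm⟩,
      Quotient.mk'' ⟨![a, b, d], inj hab hda.symm hdb.symm⟩]
  suffices h : Function.Surjective t by simpa using Nat.card_le_card_of_surjective t h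
  intro q
  induction q using Quotient.inductionOn' with
  | h x =>
    obtain ⟨h, hh, h0, h1⟩ := T.two a b (x 0) (x 1) hab (x.injective.ne (by decide))
    have hne0 : h⁻¹ • x 2 ≠ a := fun e => x.injective.ne (show (2 : Fin 3) ≠ 0 by decide)
      (by rw [← h0, ← e, smul_inv_smul])
    have hne1 : h⁻¹ • x 2 ≠ b := fun e => x.injective.ne (show (2 : Fin 3) ≠ 1 by decide)
      (by rw [← h1, ← e, smul_inv_smul])
    obtain ⟨e, ⟨heH, hea, heb⟩, hcd⟩ := hC _ hne0 hne1
    rcases hcd with hc | hd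
    · refine ⟨0, (Quotient.sound' (orbitRel_apply.2 ⟨⟨h * e, H.mul_mem hh heH⟩, ?_⟩)).symm⟩
      ext i : 1
      show (h * e) • (![a, b, c] i) = x i
      fin_cases i
      · show (h * e) • a = x 0
        rw [mul_smul, mem_stabilizer_iff.1 hea, h0]
      · show (h * e) • b = x 1
        rw [mul_smul, mem_stabilizer_iff.1 heb, h1]
      · show (h * e) • c = x 2
        rw [mul_smul, hc, smul_inv_smul]
    · refine ⟨1, (Quotient.sound' (orbitRel_apply.2 ⟨⟨h * e, H.mul_mem hh heH⟩, ?_⟩)).symm⟩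
      ext i : 1
      show (h * e) • (![a, b, d] i) = x i
      fin_cases i
      · show (h * e) • a = x 0
        rw [mul_smul, mem_stabilizer_iff.1 hea, h0]
      · show (h * e) • b = x 1
        rw [mul_smul, mem_stabilizer_iff.1 heb, h1]
      · show (h * e) • d = x 2
        rw [mul_smul, hd, smul_inv_smul]

theorem Triple.three_pretransitive (T : Triple G Ω H) {a b c : Ω} (hab : a ≠ b)
    (hC : Covers H a b c c) : IsMultiplyPretransitive H Ω 3 := by
  obtain ⟨hca, hcb, -, -, hC⟩ := hC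
  have key : ∀ x : Fin 3 ↪ Ω, ∃ h : H,
      (h : G) • a = x 0 ∧ (h : G) • b = x 1 ∧ (h : G) • c = x 2 := by
    intro x
    obtain ⟨h, hh, h0, h1⟩ := T.two a b (x 0) (x 1) hab (x.injective.ne (by decide))
    have hne0 : h⁻¹ • x 2 ≠ a := fun e => x.injective.ne (show (2 : Fin 3) ≠ 0 by decide)
      (by rw [← h0, ← e, smul_inv_smul])
    have hne1 : h⁻¹ • x 2 ≠ b := fun e => x.injective.ne (show (2 : Fin 3) ≠ 1 by decide)
      (by rw [← h1, ← e, smul_inv_smul])
    obtain ⟨e, ⟨heH, hea, heb⟩, hcd⟩ := hC _ hne0 hne1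
    exact ⟨⟨h * e, H.mul_mem hh heH⟩, by rw [mul_smul, mem_stabilizer_iff.1 hea, h0],
      by rw [mul_smul, mem_stabilizer_iff.1 heb, h1], by rw [mul_smul, or_self_iff.1 hcd, smul_inv_smul]⟩
  rw [isMultiplyPretransitive_iff]
  intro x y
  obtain ⟨g, g0, g1, g2⟩ := key x
  obtain ⟨h, h0, h1, h2⟩ := key y
  refine ⟨h * g⁻¹, ?_⟩
  ext i : 1
  show ((h : G) * ((g⁻¹ : H) : G)) • x i = y i
  rw [mul_smul, Subgroup.coe_inv]
  fin_cases i
  · show (h : G) • (g : G)⁻¹ • x 0 = y 0
    rw [← g0, inv_smul_smul, h0]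
  · show (h : G) • (g : G)⁻¹ • x 1 = y 1
    rw [← g1, inv_smul_smul, h1]
  · show (h : G) • (g : G)⁻¹ • x 2 = y 2
    rw [← g2, inv_smul_smul, h2]

/-- Transport of a covering to another pair of points. -/
theorem Triple.covers_transport (T : Triple G Ω H) {a b c d a' b' : Ω} (hab : a ≠ b) (hab' : a' ≠ b')
    (hC : Covers H a b c d) : ∃ c' d', Covers H a' b' c' d' ∧ (c = d → c' = d') := by
  obtain ⟨hca, hcb, hda, hdb, hC⟩ := hC
  obtain ⟨h, hh, h0, h1⟩ := T.two a b a' b' hab hab'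
  subst h0 h1
  refine ⟨h • c, h • d, ⟨(MulAction.injective h).ne hca, (MulAction.injective h).ne hcb,
    (MulAction.injective h).ne hda, (MulAction.injective h).ne hdb, fun x hxa hxb => ?_⟩,
    fun e => by rw [e]⟩
  obtain ⟨e, ⟨heH, hea, heb⟩, hcd⟩ := hC (h⁻¹ • x)
    (fun e => hxa (inv_smul_eq_iff.1 e)) (fun e => hxb (inv_smul_eq_iff.1 e))
  refine ⟨h * e * h⁻¹, ⟨H.mul_mem (H.mul_mem hh heH) (H.inv_mem hh), ?_, ?_⟩, ?_⟩
  · show (h * e * h⁻¹) • h • a = h • a
    rw [mul_smul, inv_smul_smul, mul_smul, mem_stabilizer_iff.1 hea]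
  · show (h * e * h⁻¹) • h • b = h • b
    rw [mul_smul, inv_smul_smul, mul_smul, mem_stabilizer_iff.1 heb]
  · refine hcd.imp (fun e' => ?_) fun e' => ?_ <;>
      rw [mul_smul, inv_smul_smul, mul_smul, e', smul_inv_smul]

/-- The setting of the statement gives a `Triple`. -/
theorem exists_triple [Finite G] [Fintype Ω] [FaithfulSMul G Ω] (h3 : IsMultiplyPretransitive G Ω 3)
    (hΩ : 3 ∣ Fintype.card Ω) (hΩ3 : 3 < Fintype.card Ω) (H : Subgroup G) [H.Normal] (hH : H ≠ ⊥) :
    Triple G Ω H := by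
  classical
  have h2 : IsMultiplyPretransitive H Ω 2 := by
    rcases CfsgLib.PermGroups.normal_multiplyPretransitive 3 (X := Ω) (by norm_num)
      (by rw [Nat.card_eq_fintype_card]; omega) h3 H hH with h | ⟨-, htr, hreg, -, hexp⟩
    · exact h
    · exfalso
      obtain ⟨a⟩ : Nonempty Ω := Fintype.card_pos_iff.mp (by omega)
      haveI := htr
      have hcard : Nat.card H = Nat.card Ω := by
        have h := (stabilizer H a).card_mul_index
        rw [index_stabilizer_of_transitive, hreg a, Subgroup.card_bot, one_mul] at h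
        exact h.symm
      haveI := Fact.mk Nat.prime_two
      have hp : IsPGroup 2 H := fun x => ⟨1, by
        rw [pow_one]; exact Subtype.ext (hexp x x.2)⟩
      obtain ⟨k, hk⟩ := IsPGroup.iff_card.mp hp
      rw [hcard, Nat.card_eq_fintype_card] at hk
      have := (Nat.prime_dvd_prime_iff_eq Nat.prime_three Nat.prime_two).1
        (Nat.prime_three.dvd_of_dvd_pow (hk ▸ hΩ))
      omega
  refine ⟨fun g hg => FaithfulSMul.eq_of_smul_eq_smul fun y => by rw [hg, one_smul], ?_,
    inferInstance, fun a b c d hab hcd => ?_⟩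
  · intro x y z x' y' z' h1 h2 h3' h4 h5 h6
    have inj : ∀ {u v w : Ω}, u ≠ v → u ≠ w → v ≠ w → Function.Injective ![u, v, w] := by
      intro u v w h1 h2 h3 i j hij
      fin_cases i <;> fin_cases j <;> first
        | rfl
        | exact absurd hij h1
        | exact absurd hij h1.symm
        | exact absurd hij h2
        | exact absurd hij h2.symm
        | exact absurd hij h3
        | exact absurd hij h3.symm
    haveI := h3
    obtain ⟨g, hg⟩ := exists_smul_eq G (⟨![x, y, z], inj h1 h2 h3'⟩ : Fin 3 ↪ Ω)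
      ⟨![x', y', z'], inj h4 h5 h6⟩
    exact ⟨g, congrArg (fun f : Fin 3 ↪ Ω => f 0) hg, congrArg (fun f : Fin 3 ↪ Ω => f 1) hg,
      congrArg (fun f : Fin 3 ↪ Ω => f 2) hg⟩
  · obtain ⟨h, hh0, hh1⟩ := is_two_pretransitive_iff.mp h2 hab hcd
    exact ⟨h, h.2, hh0, hh1⟩

end CfsgLib.TripleOrbits
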