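import Mathlib

/-!
Automorphisms of a finite field on its multiplicative group.
-/

set_option autoImplicit false

namespace CfsgLib.TripleOrbits

variable {F : Type*} [Field F] [Finite F]

/-- An automorphism of a finite field is a power map on the units. -/
theorem exists_unitsMap_zpow (σ : F ≃+* F) :
    ∃ m : ℤ, ∀ a : Fˣ, Units.map σ.toMonoidHom a = a ^ m :=
  MonoidHom.map_cyclic _

theorem unitsMap_comm (σ τ : F ≃+* F) (a : Fˣ) :
    Units.map σ.toMonoidHom (Units.map τ.toMonoidHom a) =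
      Units.map τ.toMonoidHom (Units.map σ.toMonoidHom a) := by
  obtain ⟨m, hm⟩ := exists_unitsMap_zpow σ
  obtain ⟨n, hn⟩ := exists_unitsMap_zpow τ
  rw [hn a, map_zpow, hm, hn (a ^ m)]

/-- The product of the first `n` conjugates of `z`. -/
def nrmTo (σ : F ≃+* F) (z : F) : ℕ → F
  | 0 => 1
  | n + 1 => z * σ (nrmTo σ z n)

theorem nrmTo_mul (σ : F ≃+* F) (y z : F) :
    ∀ n, nrmTo σ (y * z) n = nrmTo σ y n * nrmTo σ z n
  | 0 => (one_mul 1).symm
  | n + 1 => by simp only [nrmTo, nrmTo_mul σ y z n, map_mul]; ring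

theorem nrmTo_neg_one (σ : F ≃+* F) : ∀ n, nrmTo σ (-1) n = (-1) ^ n
  | 0 => (pow_zero _).symm
  | n + 1 => by simp only [nrmTo, nrmTo_neg_one σ n, map_pow, map_neg, map_one]; ring

/-- Hilbert's theorem ninety. -/
theorem exists_eq_mul_apply (σ : F ≃+* F) {z : F} (h : nrmTo σ z (orderOf σ) = 1) :
    ∃ y : F, y ≠ 0 ∧ y = z * σ y := by
  classical
  haveI : Finite (F ≃+* F) := Finite.of_injective (fun σ => (σ : F → F)) DFunLike.coe_injective
  set e := orderOf σ with he
  have he0 : 0 < e := orderOf_pos σ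
  let f : Fin e → F →* F := fun i => ((σ ^ (i : ℕ)).toRingHom : F →+* F).toMonoidHom
  have hf : Function.Injective f := fun i j hij => Fin.ext (pow_injOn_Iio_orderOf i.2 j.2
    (RingEquiv.ext fun x => DFunLike.congr_fun hij x))
  have hL : ∃ x : F, ∑ i ∈ Finset.range e, nrmTo σ z i * (σ ^ i) x ≠ 0 := by
    by_contra hc
    push Not at hc
    have hli := (linearIndependent_monoidHom F F).comp f hf
    rw [Fintype.linearIndependent_iff] at hli
    refine one_ne_zero (α := F) (hli (fun i : Fin e => nrmTo σ z i) (funext fun x => ?_) ⟨0, he0⟩)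
    simp only [Finset.sum_apply, Pi.smul_apply, Function.comp_apply, smul_eq_mul, Pi.zero_apply]
    rw [← hc x, Finset.sum_range]
    rfl
  obtain ⟨x, hx⟩ := hL
  refine ⟨_, hx, ?_⟩
  have hstep : ∀ i, z * σ (nrmTo σ z i * (σ ^ i) x) = nrmTo σ z (i + 1) * (σ ^ (i + 1)) x := by
    intro i
    rw [map_mul, ← mul_assoc, pow_succ']
    rfl
  rw [map_sum, Finset.mul_sum, Finset.sum_congr rfl fun i _ => hstep i]
  have h1 := Finset.sum_range_succ (fun i => nrmTo σ z i * (σ ^ i) x) e
  have h2 := Finset.sum_range_succ' (fun i => nrmTo σ z i * (σ ^ i) x) e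
  have h3 : nrmTo σ z e * (σ ^ e) x = x := by rw [h, he, pow_orderOf_eq_one, one_mul]; rfl
  have h4 : nrmTo σ z 0 * (σ ^ 0) x = x := by rw [pow_zero]; exact one_mul x
  rw [h1] at h2
  simp only [h3, h4] at h2
  exact add_right_cancel h2

/-- A subgroup of odd index contains the elements of order two. -/
theorem mem_of_sq_eq_one {A : Type*} [CommGroup A] {S : Subgroup A} (hS : Odd S.index) {a : A}
    (ha : a ^ 2 = 1) : a ∈ S := by
  have h := S.pow_index_mem a
  obtain ⟨k, hk⟩ := hS
  rwa [hk, pow_add, pow_mul, ha, one_pow, one_mul, pow_one] at h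

end CfsgLib.TripleOrbits
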