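import Mathlib
import Cfsg.Agent.TripleOrbits15.CyclicField

/-!
Triply transitive groups with a point stabiliser semilinear of dimension one: the scalars are all
there, and a normal doubly transitive subgroup contains the squares.
-/

set_option autoImplicit false
set_option linter.unusedSectionVars false

open MulAction

namespace CfsgLib.TripleOrbits

/-- Coordinates for a triply transitive group whose point stabiliser is semilinear of dimension
one. -/
structure Coords (G Ω F : Type*) [Group G] [MulAction G Ω] [Field F] where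
  i : Ω
  pt : F → Ω
  inj : Function.Injective pt
  ne : ∀ x, pt x ≠ i
  surj : ∀ y, y ≠ i → ∃ x, pt x = y
  faithful : ∀ g : G, (∀ y : Ω, g • y = y) → g = 1
  three : ∀ a b c a' b' c' : Ω, a ≠ b → a ≠ c → b ≠ c → a' ≠ b' → a' ≠ c' → b' ≠ c' →
    ∃ g : G, g • a = a' ∧ g • b = b' ∧ g • c = c'
  semi : ∀ g : G, g • i = i → g • pt 0 = pt 0 →
    ∃ (c : Fˣ) (σ : F ≃+* F), ∀ x, g • pt x = pt ((c : F) * σ x)
  autOdd : ∀ σ : F ≃+* F, Odd (orderOf σ)
  two : (2 : F) ≠ 0
  gen : Set G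
  gen_scalar : ∀ g ∈ gen, g • i = i ∧ ∃ c : F, ∀ x, g • pt x = pt (c * x)
  gen_conj : ∀ h : G, (h • i = i ∧ h • pt 0 = pt 0) ∨ (h • i = pt 0 ∧ h • pt 0 = i) →
    ∀ g ∈ gen, h * g * h⁻¹ ∈ gen
  gen_span : ∀ σ : F ≃+* F, (∀ g ∈ gen, ∀ c : F, (∀ x, g • pt x = pt (c * x)) → σ c = c) → σ = 1

namespace Coords

variable {G Ω F : Type*} [Group G] [MulAction G Ω] [Field F] (D : Coords G Ω F)

/-- The stabiliser of `i` and of the origin. -/
def X : Subgroup G := stabilizer G D.i ⊓ stabilizer G (D.pt 0)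

theorem mem_X {g : G} : g ∈ D.X ↔ g • D.i = D.i ∧ g • D.pt 0 = D.pt 0 := Iff.rfl

theorem eq_or_pt (y : Ω) : y = D.i ∨ ∃ x, D.pt x = y := by
  by_cases h : y = D.i
  · exact Or.inl h
  · exact Or.inr (D.surj y h)

theorem eq_of_pt {g h : G} (hg : g • D.i = D.i) (hh : h • D.i = D.i)
    (heq : ∀ x, g • D.pt x = h • D.pt x) : g = h := by
  refine (inv_mul_eq_one.1 (D.faithful (h⁻¹ * g) fun y => ?_)).symm
  rw [mul_smul, inv_smul_eq_iff]
  rcases D.eq_or_pt y with rfl | ⟨x, rfl⟩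
  · rw [hg, hh]
  · exact heq x

include D in
theorem neg_one_ne : (-1 : F) ≠ 1 := by
  have := D.two
  intro h
  exact this (by linear_combination -h)

theorem map_one_units (a : Fˣ) : Units.map (1 : F ≃+* F).toMonoidHom a = a := Units.ext rfl

/-- `g` acts as `x ↦ c σ x`. -/
def Acts (g : G) (c : Fˣ) (σ : F ≃+* F) : Prop :=
  g • D.i = D.i ∧ ∀ x, g • D.pt x = D.pt ((c : F) * σ x)

theorem exists_acts {g : G} (hg : g ∈ D.X) : ∃ c σ, D.Acts g c σ :=
  (D.semi g hg.1 hg.2).imp fun _ h => h.imp fun _ h => ⟨hg.1, h⟩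

variable {D}

theorem Acts.mem {g : G} {c : Fˣ} {σ : F ≃+* F} (h : D.Acts g c σ) : g ∈ D.X :=
  ⟨h.1, show g • D.pt 0 = D.pt 0 by rw [h.2, map_zero, mul_zero]⟩

theorem Acts.unique {g : G} {c c' : Fˣ} {σ σ' : F ≃+* F} (h : D.Acts g c σ)
    (h' : D.Acts g c' σ') : c = c' ∧ σ = σ' := by
  have e : ∀ x, (c : F) * σ x = c' * σ' x := fun x => D.inj ((h.2 x).symm.trans (h'.2 x))
  have ec : c = c' := Units.ext (by simpa using e 1)
  refine ⟨ec, RingEquiv.ext fun x => ?_⟩
  have := e x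
  rw [ec] at this
  exact mul_left_cancel₀ c'.ne_zero this

theorem Acts.ext {g g' : G} {c : Fˣ} {σ : F ≃+* F} (h : D.Acts g c σ) (h' : D.Acts g' c σ) :
    g = g' :=
  D.eq_of_pt h.1 h'.1 fun x => (h.2 x).trans (h'.2 x).symm

theorem Acts.mul {g g' : G} {c c' : Fˣ} {σ σ' : F ≃+* F} (h : D.Acts g c σ)
    (h' : D.Acts g' c' σ') :
    D.Acts (g * g') (c * Units.map σ.toMonoidHom c') (σ * σ') := by
  refine ⟨by rw [mul_smul, h'.1, h.1], fun x => ?_⟩
  rw [mul_smul, h'.2, h.2, map_mul, Units.val_mul, mul_assoc]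
  rfl

theorem acts_one : D.Acts 1 1 1 :=
  ⟨one_smul G _, fun x => by rw [one_smul, Units.val_one, one_mul]; rfl⟩

theorem Acts.pow {g : G} {c : Fˣ} {σ : F ≃+* F} (h : D.Acts g c σ) :
    ∀ n : ℕ, ∃ a : Fˣ, (a : F) = nrmTo σ c n ∧ D.Acts (g ^ n) a (σ ^ n)
  | 0 => ⟨1, by simp [nrmTo], by simpa using acts_one⟩
  | n + 1 => by
    obtain ⟨a, ha, h1⟩ := Acts.pow h n
    refine ⟨c * Units.map σ.toMonoidHom a, ?_, by
      rw [pow_succ', pow_succ' σ]; exact h.mul h1⟩
    rw [Units.val_mul]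
    show (c : F) * σ a = _
    rw [ha]
    rfl

theorem Acts.inv {g : G} {c : Fˣ} {σ : F ≃+* F} (h : D.Acts g c σ) :
    D.Acts g⁻¹ (Units.map σ⁻¹.toMonoidHom c⁻¹) σ⁻¹ := by
  obtain ⟨c', σ', h'⟩ := D.exists_acts (D.X.inv_mem h.mem)
  have := h.mul h'
  rw [mul_inv_cancel] at this
  obtain ⟨e1, e2⟩ := this.unique acts_one
  have e3 : σ' = σ⁻¹ := eq_inv_of_mul_eq_one_right e2
  subst e3
  have e4 : c' = Units.map σ⁻¹.toMonoidHom c⁻¹ := by
    have : Units.map σ.toMonoidHom c' = c⁻¹ := eq_inv_of_mul_eq_one_right e1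
    rw [← this]
    ext
    exact (RingEquiv.symm_apply_apply σ (c' : F)).symm
  rwa [← e4]

variable (D)

/-- The field part of an element of `X`. -/
noncomputable def fieldPart : D.X →* (F ≃+* F) where
  toFun g := (D.exists_acts g.2).choose_spec.choose
  map_one' := ((D.exists_acts (1 : D.X).2).choose_spec.choose_spec.unique
    (acts_one : D.Acts ((1 : D.X) : G) 1 1)).2
  map_mul' g h := ((D.exists_acts (g * h).2).choose_spec.choose_spec.unique
    ((D.exists_acts g.2).choose_spec.choose_spec.mul (D.exists_acts h.2).choose_spec.choose_spec)).2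

theorem fieldPart_eq {g : D.X} {c : Fˣ} {σ : F ≃+* F} (h : D.Acts g c σ) :
    D.fieldPart g = σ :=
  ((D.exists_acts g.2).choose_spec.choose_spec.unique h).2

/-- The scalars. -/
def S : Subgroup Fˣ where
  carrier := {a | ∃ g, D.Acts g a 1}
  one_mem' := ⟨1, acts_one⟩
  mul_mem' := fun {a b} ⟨g, hg⟩ ⟨h, hh⟩ => ⟨g * h, by
    have := hg.mul hh; rwa [map_one_units, one_mul] at this⟩
  inv_mem' := fun {a} ⟨g, hg⟩ => ⟨g⁻¹, by have := hg.inv; rwa [inv_one, map_one_units] at this⟩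

theorem acts_mul_scalar {g h : G} {a c : Fˣ} {σ : F ≃+* F} (hg : D.Acts g a 1)
    (hh : D.Acts h c σ) : D.Acts (g * h) (a * c) σ := by
  have := hg.mul hh
  rwa [map_one_units, one_mul] at this

/-- The elements of `gen` are scalars. -/
theorem gen_acts {g : G} (hg : g ∈ D.gen) : ∃ a : Fˣ, D.Acts g a 1 := by
  obtain ⟨hi, c, hc⟩ := D.gen_scalar g hg
  have hc0 : c ≠ 0 := by
    rintro rfl
    exact one_ne_zero (α := F) (D.inj (smul_left_cancel g (by rw [hc, hc, zero_mul, zero_mul])))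
  exact ⟨Units.mk0 c hc0, hi, hc⟩

theorem gen_conj' {h g : G} (hh : (h • D.i = D.i ∧ h • D.pt 0 = D.pt 0) ∨
    (h • D.i = D.pt 0 ∧ h • D.pt 0 = D.i)) (hg : g ∈ D.gen) : h⁻¹ * g * h ∈ D.gen := by
  have := D.gen_conj h⁻¹ (by
    rcases hh with ⟨a, b⟩ | ⟨a, b⟩
    · exact Or.inl ⟨inv_smul_eq_iff.2 a.symm, inv_smul_eq_iff.2 b.symm⟩
    · exact Or.inr ⟨inv_smul_eq_iff.2 b.symm, inv_smul_eq_iff.2 a.symm⟩) g hg
  rwa [inv_inv] at this

theorem card_dvd_X [Finite G] [Finite F] : Nat.card Fˣ ∣ Nat.card D.X := by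
  classical
  have horb : orbit D.X (D.pt 1) = Set.range fun a : Fˣ => D.pt a := by
    ext y
    constructor
    · rintro ⟨g, rfl⟩
      obtain ⟨c, σ, h⟩ := D.exists_acts g.2
      exact ⟨c, by
        show D.pt c = (g : G) • D.pt 1
        rw [h.2, map_one, mul_one]⟩
    · rintro ⟨a, rfl⟩
      have h01 : D.pt 0 ≠ D.pt 1 := D.inj.ne zero_ne_one
      have h0a : D.pt 0 ≠ D.pt a := D.inj.ne a.ne_zero.symm
      obtain ⟨g, g1, g2, g3⟩ := D.three D.i (D.pt 0) (D.pt 1) D.i (D.pt 0) (D.pt a)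
        (D.ne 0).symm (D.ne 1).symm h01 (D.ne 0).symm (D.ne _).symm h0a
      exact ⟨⟨g, g1, g2⟩, g3⟩
  have h2 : Nat.card (orbit D.X (D.pt 1)) = Nat.card Fˣ := by
    rw [horb, Nat.card_range_of_injective fun a b h => Units.ext (D.inj h)]
  exact h2 ▸ Dvd.intro _ ((Nat.card_congr (orbitProdStabilizerEquivGroup D.X (D.pt 1))).symm.trans
    (Nat.card_prod _ _)).symm

theorem index_S_odd [Finite G] [Finite F] : Odd D.S.index := by
  classical
  haveI : Finite (F ≃+* F) := Finite.of_injective (fun σ => (σ : F → F)) DFunLike.coe_injective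
  let j : D.fieldPart.ker → D.S := fun g =>
    ⟨(D.exists_acts g.1.2).choose, g.1, by
      have h := (D.exists_acts g.1.2).choose_spec.choose_spec
      have e : D.fieldPart g.1 = 1 := g.2
      rw [← D.fieldPart_eq h, e] at h
      exact h⟩
  have hj : Function.Injective j := by
    intro g g' hgg
    have h := (D.exists_acts g.1.2).choose_spec.choose_spec
    have h' := (D.exists_acts g'.1.2).choose_spec.choose_spec
    have e : D.fieldPart g.1 = 1 := g.2
    have e' : D.fieldPart g'.1 = 1 := g'.2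
    rw [← D.fieldPart_eq h, e] at h
    have e3 : (D.exists_acts g.1.2).choose = (D.exists_acts g'.1.2).choose :=
      congrArg Subtype.val hgg
    rw [← D.fieldPart_eq h', e', ← e3] at h'
    exact Subtype.ext (Subtype.ext (h.ext h'))
  have hle : Nat.card D.fieldPart.ker ∣ Nat.card D.S := by
    let jh : D.fieldPart.ker →* D.S := MonoidHom.mk' j fun g g' => by
      have h := (D.exists_acts g.1.2).choose_spec.choose_spec
      have h' := (D.exists_acts g'.1.2).choose_spec.choose_spec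
      have e : D.fieldPart g.1 = 1 := g.2
      rw [← D.fieldPart_eq h, e] at h
      exact Subtype.ext ((D.exists_acts (g * g').1.2).choose_spec.choose_spec.unique
        (D.acts_mul_scalar h h')).1
    exact Subgroup.card_dvd_of_injective jh hj
  have hrange : Odd (Nat.card D.fieldPart.range) := by
    by_contra h
    rw [Nat.not_odd_iff_even, even_iff_two_dvd] at h
    haveI := Fact.mk Nat.prime_two
    obtain ⟨σ, hσ⟩ := exists_prime_orderOf_dvd_card' 2 h
    have h' := D.autOdd σ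
    rw [Subgroup.orderOf_coe, hσ] at h'
    exact absurd h' (by decide)
  have h1 : Nat.card D.X = Nat.card D.fieldPart.range * Nat.card D.fieldPart.ker := by
    rw [← Subgroup.index_ker, mul_comm, Subgroup.card_mul_index]
  obtain ⟨k, hk⟩ := hle
  have h2 := D.card_dvd_X
  rw [h1, ← D.S.index_mul_card, hk, mul_comm (Nat.card D.fieldPart.ker) k, ← mul_assoc] at h2
  have h3 := Nat.dvd_of_mul_dvd_mul_right Nat.card_pos h2
  exact hrange.of_dvd_nat ((dvd_mul_right _ k).trans h3)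

theorem neg_one_mem_S [Finite G] [Finite F] : (-1 : Fˣ) ∈ D.S :=
  CfsgLib.TripleOrbits.mem_of_sq_eq_one D.index_S_odd (by simp)

end Coords

end CfsgLib.TripleOrbits
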