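import Mathlib
import Cfsg.Prelude.Def_Sz

/-!
The hypothesis on simple groups of order prime to three.
-/

set_option autoImplicit false

namespace CfsgLib.TripleOrbits

universe u

/-- The simple groups of order prime to three are Suzuki groups. -/
def ThreePrimeSimple : Prop :=
  ∀ (L : Type u) [Group L] [Finite L], IsSimpleGroup L → ¬ IsMulCommutative L →
    ¬ 3 ∣ Nat.card L → Cfsg.Lie.IsoSuzuki L

end CfsgLib.TripleOrbits
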