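import Mathlib

/-!
An abelian group normalised by a group transitive on the nonzero vectors generates a field.
-/

set_option autoImplicit false
set_option linter.unusedSectionVars false

namespace CfsgLib.TripleOrbits

variable {X : Type*} [Group X] {V : Type*} [AddCommGroup V] [Finite V] [DistribMulAction X V]
  (C : Subgroup X)

/-- The endomorphism given by an element of `X`. -/
def act (x : X) : AddMonoid.End V := DistribSMul.toAddMonoidHom V x

theorem act_apply (x : X) (v : V) : act x v = x • v := rfl

/-- The endomorphism ring generated by `C`. -/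
def endRing : Subring (AddMonoid.End V) :=
  Subring.closure (Set.range fun c : C => act ((c : C) : X))

theorem gen_mem (c : X) (hc : c ∈ C) :
    act c ∈ endRing (V := V) C :=
  Subring.subset_closure ⟨⟨c, hc⟩, rfl⟩

variable {C}

theorem endRing_comm (hC : ∀ a ∈ C, ∀ b ∈ C, a * b = b * a) {f g : AddMonoid.End V}
    (hf : f ∈ endRing (V := V) C) (hg : g ∈ endRing (V := V) C) : f * g = g * f := by
  letI := Subring.closureCommRingOfComm (R := AddMonoid.End V)
    (s := Set.range fun c : C => act ((c : C) : X)) (by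
      rintro _ ⟨a, rfl⟩ _ ⟨b, rfl⟩
      refine AddMonoidHom.ext fun v => ?_
      show (a : X) • (b : X) • v = (b : X) • (a : X) • v
      rw [← mul_smul, ← mul_smul, hC a a.2 b b.2])
  exact congrArg Subtype.val (mul_comm
    (⟨f, hf⟩ : Subring.closure (Set.range fun c : C => (act (c : X) : AddMonoid.End V))) ⟨g, hg⟩)

/-- Conjugation of an endomorphism by an element of `X`. -/
def conjEnd (x : X) : AddMonoid.End V →+* AddMonoid.End V where
  toFun f := act x * f * act x⁻¹
  map_one' := AddMonoidHom.ext fun v => smul_inv_smul x v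
  map_mul' f g := AddMonoidHom.ext fun v => by
    show x • f (g (x⁻¹ • v)) = x • f (x⁻¹ • x • g (x⁻¹ • v))
    rw [inv_smul_smul]
  map_zero' := AddMonoidHom.ext fun _ => smul_zero x
  map_add' f g := AddMonoidHom.ext fun _ => smul_add x _ _

theorem conjEnd_apply (x : X) (f : AddMonoid.End V) (v : V) :
    conjEnd x f v = x • f (x⁻¹ • v) := rfl

theorem conjEnd_mem [C.Normal] (x : X) {f : AddMonoid.End V} (hf : f ∈ endRing (V := V) C) :
    conjEnd x f ∈ endRing (V := V) C := by
  refine (Subring.closure_le.2 ?_ : endRing (V := V) C ≤ (endRing (V := V) C).comap (conjEnd x)) hf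
  rintro _ ⟨c, rfl⟩
  refine Subring.mem_comap.2 ?_
  have : conjEnd (V := V) x (act (c : X)) =
      act (x * c * x⁻¹) := AddMonoidHom.ext fun v => by
    show x • (c : X) • x⁻¹ • v = (x * c * x⁻¹) • v
    rw [mul_smul, mul_smul]
  rw [this]
  exact gen_mem C _ (Subgroup.Normal.conj_mem ‹_› _ c.2 x)

/-- All nonzero elements of the ring are injective: it is a field. -/
theorem endRing_injective [C.Normal] [Finite X] (hC : ∀ a ∈ C, ∀ b ∈ C, a * b = b * a)
    (htr : ∀ u v : V, u ≠ 0 → v ≠ 0 → ∃ x : X, x • u = v) {f : AddMonoid.End V}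
    (hf : f ∈ endRing (V := V) C) {v : V} (hv : v ≠ 0) (hfv : f v = 0) : f = 0 := by
  classical
  haveI : Finite (AddMonoid.End V) :=
    Finite.of_injective (fun g => ⇑g) DFunLike.coe_injective
  set K := endRing (V := V) C with hK
  let ann : V → Set K := fun v => {g | (g : AddMonoid.End V) v = 0}
  have hcard : ∀ u v : V, u ≠ 0 → v ≠ 0 → (ann u).ncard = (ann v).ncard := by
    have hle : ∀ u v : V, u ≠ 0 → v ≠ 0 → (ann u).ncard ≤ (ann v).ncard := by
      intro u v hu hv
      obtain ⟨x, rfl⟩ := htr u v hu hv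
      refine Set.ncard_le_ncard_of_injOn (fun g => ⟨conjEnd x g.1, conjEnd_mem x g.2⟩) ?_ ?_
        (Set.toFinite _)
      · intro g hg
        show x • (g : AddMonoid.End V) (x⁻¹ • x • u) = 0
        rw [inv_smul_smul, show (g : AddMonoid.End V) u = 0 from hg, smul_zero]
      · intro g _ g' _ h
        refine Subtype.ext (AddMonoidHom.ext fun w => ?_)
        have := DFunLike.congr_fun (congrArg Subtype.val h) (x • w)
        simp only [conjEnd_apply, inv_smul_smul] at this
        exact smul_left_cancel x this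
    exact fun u v hu hv => le_antisymm (hle u v hu hv) (hle v u hv hu)
  -- a minimal invariant subgroup gives a prime annihilator
  let S : Set (AddSubgroup V) := {W | W ≠ ⊥ ∧ ∀ g ∈ K, ∀ w ∈ W, g w ∈ W}
  have hS : S.Nonempty := ⟨⊤, fun h => hv (by
    have := AddSubgroup.mem_top v; rwa [h, AddSubgroup.mem_bot] at this),
    fun _ _ _ _ => AddSubgroup.mem_top _⟩
  obtain ⟨W, ⟨hW0, hWinv⟩, hWmin⟩ := wellFounded_lt.has_min S hS
  obtain ⟨⟨u, huW⟩, hu'⟩ := AddSubgroup.ne_bot_iff_exists_ne_zero.1 hW0
  have hu : u ≠ 0 := fun h => hu' (Subtype.ext h)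
  have hprime0 : ∀ g g' : K, (g : AddMonoid.End V) ((g' : AddMonoid.End V) u) = 0 →
      g ∈ ann u ∨ g' ∈ ann u := by
    intro g g' hgg
    by_cases hg' : (g' : AddMonoid.End V) u = 0
    · exact Or.inr hg'
    refine Or.inl ?_
    let W' : AddSubgroup V := W ⊓ (g : AddMonoid.End V).ker
    have hW' : W' ∈ S := ⟨fun h => hg' (by
      have : (g' : AddMonoid.End V) u ∈ W' := ⟨hWinv _ g'.2 u huW, hgg⟩
      rwa [h, AddSubgroup.mem_bot] at this), fun k hk w hw => ⟨hWinv k hk w hw.1, by
        show (g : AddMonoid.End V) (k w) = 0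
        have h0 : (g : AddMonoid.End V) w = 0 := hw.2
        have := DFunLike.congr_fun (endRing_comm hC g.2 hk) w
        rw [show (g : AddMonoid.End V) (k w) = ((g : AddMonoid.End V) * k) w from rfl, this]
        show k ((g : AddMonoid.End V) w) = 0
        rw [h0, map_zero]⟩⟩
    have he : W' = W := by
      by_contra hne
      exact hWmin W' hW' (lt_of_le_of_ne inf_le_left hne)
    exact (he ▸ huW : u ∈ W').2
  have hprime : ∀ w : V, w ≠ 0 → ∀ g g' : K, (g : AddMonoid.End V) ((g' : AddMonoid.End V) w) = 0 →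
      g ∈ ann w ∨ g' ∈ ann w := by
    intro w hw g g' hgg
    obtain ⟨x, rfl⟩ := htr u w hu hw
    have h := hprime0 ⟨conjEnd x⁻¹ g.1, conjEnd_mem _ g.2⟩ ⟨conjEnd x⁻¹ g'.1, conjEnd_mem _ g'.2⟩
      (by simp only [conjEnd_apply, inv_inv, smul_inv_smul]; rw [hgg, smul_zero])
    rcases h with h | h
    · left
      have h' : x⁻¹ • (g : AddMonoid.End V) (x • u) = 0 := by
        simpa [ann, conjEnd_apply] using h
      exact (smul_eq_zero_iff_eq x⁻¹).1 h'
    · right
      have h' : x⁻¹ • (g' : AddMonoid.End V) (x • u) = 0 := by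
        simpa [ann, conjEnd_apply] using h
      exact (smul_eq_zero_iff_eq x⁻¹).1 h'
  have hsame : ∀ a b : V, a ≠ 0 → b ≠ 0 → ann a = ann b := by
    intro a b ha hb
    have eqof : ∀ {a b : V}, a ≠ 0 → b ≠ 0 → ann a ⊆ ann b → ann a = ann b := fun ha hb h =>
      Set.eq_of_subset_of_ncard_le h (hcard _ _ hb ha).le (Set.toFinite _)
    by_contra hne
    by_cases hab : a + b = 0
    · refine hne ?_
      have : b = -a := eq_neg_of_add_eq_zero_right hab
      ext g
      simp [ann, this]
    · have hor : ann a ⊆ ann (a + b) ∨ ann b ⊆ ann (a + b) := by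
        by_contra h
        simp only [not_or, Set.not_subset] at h
        obtain ⟨⟨g, hga, hgn⟩, ⟨g', hgb, hgn'⟩⟩ := h
        have hga' : (g : AddMonoid.End V) a = 0 := hga
        have hgb' : (g' : AddMonoid.End V) b = 0 := hgb
        rcases hprime _ hab g g' (by
          rw [map_add, hgb', add_zero,
            show (g : AddMonoid.End V) ((g' : AddMonoid.End V) a) =
              ((g : AddMonoid.End V) * g') a from rfl, endRing_comm hC g.2 g'.2]
          show (g' : AddMonoid.End V) ((g : AddMonoid.End V) a) = 0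
          rw [hga', map_zero]) with e | e
        · exact hgn e
        · exact hgn' e
      rcases hor with h | h
      · refine hne (eqof ha hb fun g hg => ?_)
        have h1 : (g : AddMonoid.End V) (a + b) = 0 := h hg
        rwa [map_add, show (g : AddMonoid.End V) a = 0 from hg, zero_add] at h1
      · refine hne (eqof hb ha fun g hg => ?_).symm
        have h1 : (g : AddMonoid.End V) (a + b) = 0 := h hg
        rwa [map_add, show (g : AddMonoid.End V) b = 0 from hg, add_zero] at h1
  refine AddMonoidHom.ext fun w => ?_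
  by_cases hw : w = 0
  · rw [hw]
    exact map_zero f
  · have : (⟨f, hf⟩ : K) ∈ ann w := hsame v w hv hw ▸ (show (⟨f, hf⟩ : K) ∈ ann v from hfv)
    exact this

end CfsgLib.TripleOrbits
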