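import Mathlib
import Cfsg.Agent.TripleOrbits15.Core

/-!
The involution fixing the points `1` and `-1`, and its action on the scalars.
-/

set_option autoImplicit false
set_option linter.unusedSectionVars false

open MulAction

namespace CfsgLib.TripleOrbits

namespace Coords

variable {G Ω F : Type*} [Group G] [MulAction G Ω] [Field F] (D : Coords G Ω F)

/-- An element exchanging `i` and the origin, with `1` and `-1` as its only fixed points. -/
structure Swap (t : G) : Prop where
  sq : t * t = 1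
  at_i : t • D.i = D.pt 0
  at_zero : t • D.pt 0 = D.i
  at_one : t • D.pt 1 = D.pt 1
  at_neg : t • D.pt (-1) = D.pt (-1)
  only : ∀ y, t • y = y → y = D.pt 1 ∨ y = D.pt (-1)

variable [Finite G] [Finite F]

/-- An involution fixing `i` and the origin is `x ↦ -x`. -/
theorem acts_of_involution {g : G} (hg : g ∈ D.X) (h2 : g * g = 1) (h1 : g ≠ 1) :
    D.Acts g (-1) 1 := by
  obtain ⟨c, σ, h⟩ := D.exists_acts hg
  have h' := h.mul h
  rw [h2] at h'
  obtain ⟨e1, e2⟩ := h'.unique acts_one
  have hσ : σ = 1 := by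
    obtain ⟨k, hk⟩ := D.autOdd σ
    have := pow_orderOf_eq_one σ
    rwa [hk, pow_add, pow_mul, pow_two, e2, one_pow, one_mul, pow_one] at this
  subst hσ
  rw [map_one_units] at e1
  have : (c : F) * c = 1 := by rw [← Units.val_mul, e1, Units.val_one]
  rcases mul_self_eq_one_iff.1 this with e | e
  · exact absurd (h.ext ((Units.ext (by simpa using e) : c = 1) ▸ acts_one)) h1
  · rwa [(Units.ext (by simpa using e) : c = -1)] at h

theorem exists_swap : ∃ t, D.Swap t := by
  obtain ⟨ν, hν⟩ := D.neg_one_mem_S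
  have hν2 : ν * ν = 1 := by
    refine (D.acts_mul_scalar hν hν).ext ?_
    rw [neg_mul_neg, one_mul]
    exact acts_one
  have hνpt : ∀ x, ν • D.pt x = D.pt (-x) := fun x => by
    rw [hν.2, Units.val_neg, Units.val_one, neg_one_mul]; rfl
  have hν0 : ν • D.pt 0 = D.pt 0 := by rw [hνpt, neg_zero]
  have hνfix : ∀ y, ν • y = y → y = D.i ∨ y = D.pt 0 := by
    intro y hy
    rcases D.eq_or_pt y with rfl | ⟨x, rfl⟩
    · exact Or.inl rfl
    · refine Or.inr (congrArg D.pt ?_)
      rw [hνpt] at hy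
      have h : (2 : F) * x = 0 := by linear_combination -(D.inj hy)
      exact (mul_eq_zero.1 h).resolve_left D.two
  have hne1 : ∀ y, y ≠ D.i → y ≠ D.pt 0 → ν • y ≠ y := fun y a b h =>
    (hνfix y h).elim a b
  have h11 : D.pt 1 ≠ D.pt (-1) := fun h => D.neg_one_ne (D.inj h).symm
  have h01 : D.pt 0 ≠ D.pt 1 := D.inj.ne zero_ne_one
  obtain ⟨w, w1, w2, -⟩ := D.three D.i (D.pt 0) (D.pt 1) (D.pt 1) (D.pt (-1)) (D.pt 0)
    (D.ne 0).symm (D.ne 1).symm h01 h11 h01.symm
    (D.inj.ne (neg_ne_zero.2 one_ne_zero))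
  set t := w * ν * w⁻¹ with ht
  have ht2 : t * t = 1 := by
    rw [ht, show w * ν * w⁻¹ * (w * ν * w⁻¹) = w * (ν * ν) * w⁻¹ by group, hν2, mul_one,
      mul_inv_cancel]
  have tp : t • D.pt 1 = D.pt 1 := by
    rw [ht, mul_smul, mul_smul, inv_smul_eq_iff.2 w1.symm, hν.1, w1]
  have tm : t • D.pt (-1) = D.pt (-1) := by
    rw [ht, mul_smul, mul_smul, inv_smul_eq_iff.2 w2.symm, hν0, w2]
  have tonly : ∀ y, t • y = y → y = D.pt 1 ∨ y = D.pt (-1) := by
    intro y hy
    have : ν • w⁻¹ • y = w⁻¹ • y := by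
      rw [ht, mul_smul, mul_smul] at hy
      exact eq_inv_smul_iff.2 hy
    rcases hνfix _ this with h | h
    · exact Or.inl (by rw [inv_smul_eq_iff.1 h, w1])
    · exact Or.inr (by rw [inv_smul_eq_iff.1 h, w2])
  -- the two involutions commute
  set g := ν * t * ν with hg
  have g1 : g • D.pt 1 = D.pt 1 := by
    rw [hg, mul_smul, mul_smul, hνpt, tm, hνpt, neg_neg]
  have gm : g • D.pt (-1) = D.pt (-1) := by
    rw [hg, mul_smul, mul_smul, hνpt, neg_neg, tp, hνpt]
  have hcomm : ν * t * ν = t := by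
    have hmem : w⁻¹ * g * w ∈ D.X := by
      rw [mem_X, mul_smul, mul_smul, w1, g1, mul_smul, mul_smul, w2, gm]
      exact ⟨inv_smul_eq_iff.2 w1.symm, inv_smul_eq_iff.2 w2.symm⟩
    have hg2 : g * g = 1 := by
      rw [hg, show ν * t * ν * (ν * t * ν) = ν * t * (ν * ν) * t * ν by group, hν2, mul_one,
        mul_assoc ν t t, ht2, mul_one, hν2]
    have hg1 : g ≠ 1 := by
      intro e
      have et : t = 1 := by
        have := congrArg (fun x => ν * x * ν) e
        simp only [hg, mul_one] at this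
        rwa [show ν * (ν * t * ν) * ν = (ν * ν) * t * (ν * ν) by group, hν2, one_mul, mul_one]
          at this
      exact (tonly D.i (by rw [et, one_smul])).elim (D.ne 1).symm (D.ne (-1)).symm
    have h := (D.acts_of_involution hmem (by
      rw [show w⁻¹ * g * w * (w⁻¹ * g * w) = w⁻¹ * (g * g) * w by group, hg2, mul_one,
        inv_mul_cancel]) fun e => hg1 (by
          rw [show g = w * (w⁻¹ * g * w) * w⁻¹ by group, e, mul_one, mul_inv_cancel])).ext hν
    rw [← hg, show g = w * (w⁻¹ * g * w) * w⁻¹ by group, h]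
  have hcomm' : ∀ y : Ω, ν • t • y = t • ν • y := fun y => by
    have : ν * t = t * ν := by
      have h := congrArg (fun x => x * ν) hcomm
      simp only [mul_assoc, hν2, mul_one] at h
      exact h
    rw [← mul_smul, ← mul_smul, this]
  have ti : t • D.i = D.pt 0 := by
    rcases hνfix (t • D.i) (by rw [hcomm', hν.1]) with h | h
    · exact absurd (tonly _ h) (fun e => e.elim (D.ne 1).symm (D.ne (-1)).symm)
    · exact h
  refine ⟨t, ht2, ti, ?_, tp, tm, tonly⟩
  rw [← ti, ← mul_smul, ht2, one_smul]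

variable {D} {t : G}

theorem Swap.inv_eq (ht : D.Swap t) : t⁻¹ = t := inv_eq_of_mul_eq_one_right ht.sq

theorem Swap.conj_mem (ht : D.Swap t) {g : G} (hg : g ∈ D.X) : t * g * t ∈ D.X := by
  rw [mem_X, mul_smul, mul_smul, mul_smul, mul_smul, ht.at_i, hg.2, ht.at_zero, hg.1, ht.at_i]
  exact ⟨rfl, rfl⟩

/-- Conjugation by the swap sends scalars to scalars. -/
theorem Swap.conj_scalar (ht : D.Swap t) {g : G} {a : Fˣ} (hg : D.Acts g a 1) :
    ∃ b : Fˣ, D.Acts (t * g * t) b 1 := by
  obtain ⟨b, σ, h⟩ := D.exists_acts (ht.conj_mem hg.mem)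
  suffices hσ : σ = 1 by exact ⟨b, hσ ▸ h⟩
  refine D.gen_span σ fun x hx c hc => ?_
  have hsw : (t • D.i = D.i ∧ t • D.pt 0 = D.pt 0) ∨ (t • D.i = D.pt 0 ∧ t • D.pt 0 = D.i) :=
    Or.inr ⟨ht.at_i, ht.at_zero⟩
  obtain ⟨e, he⟩ := D.gen_acts (D.gen_conj t hsw x hx)
  obtain ⟨f, hf⟩ := D.gen_acts hx
  rw [ht.inv_eq] at he
  have hga : g * (t * x * t) = t * x * t * g :=
    ((D.acts_mul_scalar hg he).ext (by rw [mul_comm]; exact D.acts_mul_scalar he hg))
  have hxt : t * g * t * x = x * (t * g * t) := by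
    calc t * g * t * x = t * (g * (t * x * t)) * t := by
          simp [mul_assoc, ht.sq]
      _ = t * (t * x * t * g) * t := by rw [hga]
      _ = x * (t * g * t) := by rw [show t * (t * x * t * g) * t = (t * t) * x * (t * g * t) by group,
            ht.sq, one_mul]
  have h1 := h.mul hf
  have h2 := hf.mul h
  rw [hxt] at h1
  obtain ⟨e1, -⟩ := h1.unique h2
  rw [map_one_units, mul_comm] at e1
  have hcf : c = f := by
    have := D.inj ((hc 1).symm.trans (hf.2 1))
    simpa using this
  rw [hcf]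
  exact congrArg Units.val (mul_right_cancel e1)

/-- The effect of the swap on a scalar. -/
noncomputable def Swap.theta (ht : D.Swap t) : D.S →* Fˣ :=
  MonoidHom.mk' (fun a => (ht.conj_scalar a.2.choose_spec).choose) fun a b => by
    have ha := (ht.conj_scalar a.2.choose_spec).choose_spec
    have hb := (ht.conj_scalar b.2.choose_spec).choose_spec
    have hab := (ht.conj_scalar (a * b).2.choose_spec).choose_spec
    have h := D.acts_mul_scalar ha hb
    have e : (a * b).2.choose = a.2.choose * b.2.choose :=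
      (a * b).2.choose_spec.ext (D.acts_mul_scalar a.2.choose_spec b.2.choose_spec)
    rw [show t * a.2.choose * t * (t * b.2.choose * t) = t * (a * b).2.choose * t by
      rw [e]; simp only [← mul_assoc]; rw [mul_assoc (t * a.2.choose) t t, ht.sq, mul_one]] at h
    exact (hab.unique h).1

theorem Swap.theta_acts (ht : D.Swap t) {g : G} {a : Fˣ} (hg : D.Acts g a 1) :
    D.Acts (t * g * t) (ht.theta ⟨a, g, hg⟩) 1 := by
  have h := (ht.conj_scalar (⟨a, g, hg⟩ : D.S).2.choose_spec).choose_spec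
  have e : t * (⟨a, g, hg⟩ : D.S).2.choose * t = t * g * t :=
    congrArg (fun x => t * x * t) ((⟨a, g, hg⟩ : D.S).2.choose_spec.ext hg)
  exact e ▸ h

theorem Swap.theta_mem (ht : D.Swap t) (a : D.S) : ht.theta a ∈ D.S :=
  ⟨_, ht.theta_acts a.2.choose_spec⟩

/-- Moving a point by a scalar, through the swap. -/
theorem Swap.smul_scalar (ht : D.Swap t) (a : D.S) :
    t • D.pt ((a : Fˣ) : F) = D.pt (ht.theta a : Fˣ) := by
  have h := ht.theta_acts a.2.choose_spec
  have h1 := h.2 1
  rw [mul_smul, mul_smul, ht.at_one, a.2.choose_spec.2] at h1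
  simpa using h1

theorem Swap.theta_theta (ht : D.Swap t) (a : D.S) :
    ht.theta ⟨ht.theta a, ht.theta_mem a⟩ = a := by
  have h := ht.theta_acts (ht.theta_acts a.2.choose_spec)
  rw [show t * (t * a.2.choose * t) * t = (t * t) * a.2.choose * (t * t) by group, ht.sq, one_mul,
    mul_one] at h
  exact (h.unique a.2.choose_spec).1

/-- The swap inverts the scalars up to sign. -/
theorem Swap.theta_mul_self (ht : D.Swap t) (a : D.S) :
    (a : Fˣ) * ht.theta a = 1 ∨ (a : Fˣ) * ht.theta a = -1 := by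
  let b : D.S := a * ⟨ht.theta a, ht.theta_mem a⟩
  have hb : ht.theta b = (b : Fˣ) := by
    show ht.theta (a * _) = _
    rw [map_mul, ht.theta_theta a, mul_comm]
    rfl
  have h := ht.smul_scalar b
  rw [hb] at h
  rcases ht.only _ h with e | e
  · exact Or.inl (Units.ext (D.inj e))
  · exact Or.inr (Units.ext (D.inj e))

end Coords

end CfsgLib.TripleOrbits
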