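import Mathlib
import Cfsg.Agent.TripleOrbits15.Swap

/-!
All scalars occur in the two-point stabiliser.
-/

set_option autoImplicit false
set_option linter.unusedSectionVars false

open MulAction

namespace CfsgLib.TripleOrbits

namespace Coords

variable {G Ω F : Type*} [Group G] [MulAction G Ω] [Field F] {D : Coords G Ω F}
  [Finite G] [Finite F] {t : G}

theorem units_eq_mul {F : Type*} [Field F] (a : Fˣ) (σ : F ≃+* F) :
    (Units.map σ.toMonoidHom a : F) = σ a := rfl

/-- An element of `X` and its conjugate by the swap differ by a scalar. -/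
theorem Swap.conj_field (ht : D.Swap t) {g : G} {c : Fˣ} {σ : F ≃+* F} (hg : D.Acts g c σ) :
    ∃ a : Fˣ, a ∈ D.S ∧ D.Acts (t * g * t) (a * c) σ := by
  obtain ⟨d, τ, h⟩ := D.exists_acts (ht.conj_mem hg.mem)
  have hτ : σ⁻¹ * τ = 1 := by
    refine D.gen_span _ fun x hx e he => ?_
    obtain ⟨a, ha⟩ := D.gen_acts hx
    have hae : e = a := by simpa using D.inj ((he 1).symm.trans (ha.2 1))
    let aS : D.S := ⟨a, x, ha⟩
    have hθ := ht.theta_acts ha
    set b := ht.theta aS with hb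
    -- conjugating the scalar `b` by `g`
    have hσb : D.Acts (g * (t * x * t) * g⁻¹) (Units.map σ.toMonoidHom b) 1 := by
      have h1 := (hg.mul hθ).mul hg.inv
      rw [mul_one, mul_inv_cancel] at h1
      have e1 : c * Units.map σ.toMonoidHom b * Units.map σ.toMonoidHom
          (Units.map σ⁻¹.toMonoidHom c⁻¹) = Units.map σ.toMonoidHom b := by
        have : Units.map σ.toMonoidHom (Units.map σ⁻¹.toMonoidHom c⁻¹) = c⁻¹ :=
          Units.ext (RingEquiv.apply_symm_apply σ ((c⁻¹ : Fˣ) : F))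
        rw [this, mul_comm c, mul_inv_cancel_right]
      rwa [e1] at h1
    have hθ2 := ht.theta_acts hσb
    -- the same conjugation by the conjugate element
    have h2 := (h.mul ha).mul h.inv
    rw [mul_one, mul_inv_cancel] at h2
    have e2 : d * Units.map τ.toMonoidHom a * Units.map τ.toMonoidHom
        (Units.map τ⁻¹.toMonoidHom d⁻¹) = Units.map τ.toMonoidHom a := by
      have : Units.map τ.toMonoidHom (Units.map τ⁻¹.toMonoidHom d⁻¹) = d⁻¹ :=
        Units.ext (RingEquiv.apply_symm_apply τ ((d⁻¹ : Fˣ) : F))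
      rw [this, mul_comm d, mul_inv_cancel_right]
    rw [e2] at h2
    have egrp : t * (g * (t * x * t) * g⁻¹) * t = t * g * t * x * (t * g * t)⁻¹ := by
      rw [mul_inv_rev, mul_inv_rev, ht.inv_eq]
      simp only [mul_assoc]
    rw [egrp] at hθ2
    obtain ⟨e3, -⟩ := hθ2.unique h2
    -- both are the same power of `a`
    obtain ⟨m, hm⟩ := exists_unitsMap_zpow σ
    have e4 : (⟨Units.map σ.toMonoidHom b, _, hσb⟩ : D.S) = (⟨b, ht.theta_mem aS⟩ : D.S) ^ m :=
      Subtype.ext (by rw [SubgroupClass.coe_zpow]; exact hm b)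
    rw [e4, map_zpow, ht.theta_theta aS, ← hm] at e3
    have key : (σ a : F) = τ a := congrArg Units.val e3
    rw [hae]
    show σ.symm (τ a) = a
    rw [← key, RingEquiv.symm_apply_apply]
  have hτ' : τ = σ := by
    have := congrArg (fun x => σ * x) hτ
    simpa using this
  subst hτ'
  refine ⟨d * c⁻¹, ?_, by rwa [inv_mul_cancel_right]⟩
  have h3 := h.mul hg.inv
  rw [mul_inv_cancel] at h3
  have : Units.map τ.toMonoidHom (Units.map τ⁻¹.toMonoidHom c⁻¹) = c⁻¹ :=
    Units.ext (RingEquiv.apply_symm_apply τ ((c⁻¹ : Fˣ) : F))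
  rw [this] at h3
  exact ⟨_, h3⟩

theorem nrmTo_sq (σ : F ≃+* F) (c : F) (n : ℕ) : nrmTo σ (c * c) n = nrmTo σ c n * nrmTo σ c n :=
  nrmTo_mul σ c c n

/-- The translation part of an element of `X` is a square root of a norm one element up to
scalars. -/
theorem Swap.exists_norm_one (ht : D.Swap t) {g : G} {c : Fˣ} {σ : F ≃+* F} (hg : D.Acts g c σ) :
    ∃ a : Fˣ, a ∈ D.S ∧ nrmTo σ ((a : F) * (c * c)) (orderOf σ) = 1 := by
  obtain ⟨a, ha, hta⟩ := ht.conj_field hg
  obtain ⟨u, hu, h1⟩ := hg.pow (orderOf σ)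
  obtain ⟨v, hv, h2⟩ := hta.pow (orderOf σ)
  rw [pow_orderOf_eq_one] at h1 h2
  have hpow : (t * g * t) ^ orderOf σ = t * g ^ orderOf σ * t := by
    conv_lhs => rw [show t * g * t = t * g * t⁻¹ by rw [ht.inv_eq], conj_pow, ht.inv_eq]
  rw [hpow] at h2
  have hθ := ht.theta_acts h1
  obtain ⟨e, -⟩ := hθ.unique h2
  have hs := ht.theta_mul_self ⟨_, _, h1⟩
  rw [e] at hs
  obtain ⟨k, hk⟩ := D.autOdd σ
  rcases hs with h | h
  · refine ⟨a, ha, ?_⟩
    rw [show (a : F) * (c * c) = c * ((a * c : Fˣ) : F) by rw [Units.val_mul]; ring, nrmTo_mul,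
      ← hu, ← hv, ← Units.val_mul, h, Units.val_one]
  · refine ⟨-1 * a, D.S.mul_mem D.neg_one_mem_S ha, ?_⟩
    rw [show ((-1 * a : Fˣ) : F) * (c * c) = (-1) * (c * ((a * c : Fˣ) : F)) by
        rw [Units.val_mul, Units.val_mul, Units.val_neg, Units.val_one]; ring, nrmTo_mul, nrmTo_mul,
      ← hu, ← hv, ← Units.val_mul, h, nrmTo_neg_one, hk]
    simp [pow_add, pow_mul]

/-- `X` is transitive on the points other than `i` and the origin. -/
theorem exists_acts_one (D : Coords G Ω F) (c : Fˣ) : ∃ g σ, D.Acts g c σ := by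
  obtain ⟨g, g1, g2, g3⟩ := D.three D.i (D.pt 0) (D.pt 1) D.i (D.pt 0) (D.pt c)
    (D.ne 0).symm (D.ne 1).symm (D.inj.ne zero_ne_one) (D.ne 0).symm (D.ne _).symm
    (D.inj.ne c.ne_zero.symm)
  obtain ⟨d, σ, h⟩ := D.exists_acts ⟨g1, g2⟩
  refine ⟨g, σ, ?_⟩
  have : d = c := Units.ext (by
    have h1 := D.inj ((h.2 1).symm.trans g3)
    rwa [map_one, mul_one] at h1)
  rwa [← this]

theorem exists_acts_map (D : Coords G Ω F) (z w : Fˣ) :
    ∃ g d σ, D.Acts g d σ ∧ d * Units.map σ.toMonoidHom z = w := by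
  obtain ⟨g, g1, g2, g3⟩ := D.three D.i (D.pt 0) (D.pt z) D.i (D.pt 0) (D.pt w)
    (D.ne 0).symm (D.ne _).symm (D.inj.ne z.ne_zero.symm) (D.ne 0).symm (D.ne _).symm
    (D.inj.ne w.ne_zero.symm)
  obtain ⟨d, σ, h⟩ := D.exists_acts ⟨g1, g2⟩
  exact ⟨g, d, σ, h, Units.ext (D.inj ((h.2 z).symm.trans g3))⟩

theorem affine_fixed {Q : Type*} [CommGroup Q] (c d z : Q) (n m : ℤ)
    (hs : c * d ^ m = d * c ^ n) (hz : c * z ^ m = z) :
    (d * z ^ n * z⁻¹) ^ m = d * z ^ n * z⁻¹ := by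
  have e1 : c * (d * z ^ n) ^ m = d * z ^ n := by
    rw [mul_zpow, ← zpow_mul, mul_comm n, zpow_mul, ← mul_assoc, hs, mul_assoc, ← mul_zpow, hz]
  calc (d * z ^ n * z⁻¹) ^ m = c * (d * z ^ n) ^ m * (c * z ^ m)⁻¹ := by
        rw [mul_zpow, inv_zpow, mul_inv_rev, mul_comm c, mul_comm (z ^ m)⁻¹]
        group
    _ = d * z ^ n * z⁻¹ := by rw [e1, hz]

/-- All scalars occur. -/
theorem S_eq_top (D : Coords G Ω F) : D.S = ⊤ := by
  classical
  by_contra hne
  obtain ⟨t, ht⟩ := D.exists_swap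
  obtain ⟨l, hl, hld⟩ := Nat.exists_prime_and_dvd (Subgroup.index_eq_one.not.2 hne)
  haveI := Fact.mk hl
  have hlodd : Odd l := D.index_S_odd.of_dvd_nat hld
  set B : Subgroup Fˣ := (powMonoidHom l : Fˣ →* Fˣ).range with hB
  set π := QuotientGroup.mk' B with hπ
  have hπl : ∀ a, π a ^ l = 1 := fun a => by
    rw [← map_pow]
    exact (QuotientGroup.eq_one_iff _).2 ⟨a, rfl⟩
  -- the scalars are powers
  obtain ⟨γ, hγ⟩ := IsCyclic.exists_generator (α := Fˣ)
  have hSB : ∀ a ∈ D.S, π a = 1 := by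
    intro a ha
    refine (QuotientGroup.eq_one_iff _).2 ?_
    obtain ⟨n, rfl⟩ := Subgroup.mem_zpowers_iff.1 (hγ a)
    have hord : orderOf γ = Nat.card Fˣ := orderOf_eq_card_of_forall_mem_zpowers hγ
    have h1 : ((γ ^ n : Fˣ)) ^ Nat.card D.S = 1 :=
      congrArg Subtype.val (pow_card_eq_one' (x := (⟨γ ^ n, ha⟩ : D.S)))
    rw [← zpow_natCast, ← zpow_mul, ← orderOf_dvd_iff_zpow_eq_one, hord, ← D.S.index_mul_card,
      Nat.cast_mul] at h1
    have h2 : (D.S.index : ℤ) ∣ n :=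
      Int.dvd_of_mul_dvd_mul_right (by exact_mod_cast Nat.card_pos.ne') h1
    obtain ⟨k, rfl⟩ := (Int.natCast_dvd_natCast.2 hld).trans h2
    exact ⟨γ ^ k, by rw [powMonoidHom_apply, ← zpow_natCast, ← zpow_mul, mul_comm]⟩
  have hπne : ∃ a, π a ≠ 1 := by
    refine ⟨γ, fun h => ?_⟩
    obtain ⟨b, hb⟩ := (QuotientGroup.eq_one_iff _).1 h
    obtain ⟨n, rfl⟩ := Subgroup.mem_zpowers_iff.1 (hγ b)
    have hord : orderOf γ = Nat.card Fˣ := orderOf_eq_card_of_forall_mem_zpowers hγ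
    rw [powMonoidHom_apply, ← zpow_natCast, ← zpow_mul] at hb
    have h1 : γ ^ (n * l - 1) = 1 := by rw [zpow_sub, hb, zpow_one, mul_inv_cancel]
    rw [← orderOf_dvd_iff_zpow_eq_one, hord] at h1
    have h2 : (l : ℤ) ∣ Nat.card Fˣ :=
      Int.natCast_dvd_natCast.2 (hld.trans (Subgroup.index_dvd_card _))
    have h3 : (l : ℤ) ∣ 1 := by
      have := (dvd_mul_left (l : ℤ) n).sub (h2.trans h1)
      simpa using this
    exact hl.ne_one (by exact_mod_cast Int.eq_one_of_dvd_one (by positivity) h3)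
  have hπσ : ∀ σ : F ≃+* F, ∃ m : ℤ, ∀ a, π (Units.map σ.toMonoidHom a) = π a ^ m := fun σ =>
    (exists_unitsMap_zpow σ).imp fun m hm a => by rw [hm, map_zpow]
  by_cases hall : ∀ (g : G) (c : Fˣ) (σ : F ≃+* F), D.Acts g c σ →
      ∀ a, π (Units.map σ.toMonoidHom a) = π a
  · -- no element moves the classes: every class is trivial
    obtain ⟨c, hc⟩ := hπne
    obtain ⟨g, σ, hg⟩ := D.exists_acts_one c
    obtain ⟨a, ha, hn⟩ := ht.exists_norm_one hg
    obtain ⟨y, hy0, hy⟩ := exists_eq_mul_apply σ hn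
    have e : Units.mk0 y hy0 = a * (c * c) * Units.map σ.toMonoidHom (Units.mk0 y hy0) :=
      Units.ext (by rw [Units.val_mul, Units.val_mul, Units.val_mul]; exact hy)
    have e' := congrArg π e
    rw [map_mul, map_mul, hall g c σ hg, hSB a ha, one_mul, right_eq_mul, map_mul] at e'
    refine hc ?_
    obtain ⟨k, hk⟩ := hlodd
    have := hπl c
    rwa [hk, pow_add, pow_mul, pow_two, e', one_pow, one_mul, pow_one] at this
  · -- an element moving the classes fixes exactly one of them, and `X` permutes it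
    push Not at hall
    obtain ⟨g, c, σ, hg, a₀, ha₀⟩ := hall
    obtain ⟨m, hm⟩ := hπσ σ
    have hml : ¬ (l : ℤ) ∣ m - 1 := by
      rintro ⟨k, hk⟩
      refine ha₀ ?_
      rw [hm, show m = l * k + 1 by omega, zpow_add, zpow_mul, zpow_natCast, hπl, one_zpow,
        one_mul, zpow_one]
    have huniq : ∀ w : Fˣ, π w ^ (m - 1) = 1 → π w = 1 := by
      intro w hw
      obtain ⟨u, v, huv⟩ : IsCoprime (l : ℤ) (m - 1) :=
        ((Nat.prime_iff_prime_int.1 hl).coprime_iff_not_dvd).2 hml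
      rw [← zpow_one (π w), ← huv, zpow_add, mul_comm u, mul_comm v, zpow_mul, zpow_mul,
        zpow_natCast, hπl, hw, one_zpow, one_zpow, mul_one]
    obtain ⟨j, hj⟩ : ∃ j : ℤ, π c * (π c ^ j) ^ m = π c ^ j := by
      obtain ⟨u, v, huv⟩ : IsCoprime (l : ℤ) (m - 1) :=
        ((Nat.prime_iff_prime_int.1 hl).coprime_iff_not_dvd).2 hml
      refine ⟨-v, ?_⟩
      have h1 : π c ^ ((l : ℤ) * u) = 1 := by rw [zpow_mul, zpow_natCast, hπl, one_zpow]
      rw [← zpow_mul, show -v * m = (l : ℤ) * u + (-1 + -v) by linear_combination -huv, zpow_add,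
        h1, one_mul, zpow_add, zpow_neg_one, mul_inv_cancel_left]
    set z := c ^ j with hz
    have hzz : π (c * Units.map σ.toMonoidHom z) = π z := by
      rw [map_mul, hm, hz, map_zpow, hj]
    obtain ⟨w₀, hw₀⟩ := hπne
    -- any class is the image of the fixed class
    have hfix : ∀ (h : G) (d : Fˣ) (τ : F ≃+* F), D.Acts h d τ →
        π (d * Units.map τ.toMonoidHom z) = π z := by
      intro h d τ hh
      obtain ⟨n, hn⟩ := hπσ τ
      have hcomm : σ * τ = τ * σ := RingEquiv.ext fun x => by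
        by_cases hx : x = 0
        · rw [hx, map_zero, map_zero]
        · exact congrArg Units.val (unitsMap_comm σ τ (Units.mk0 x hx))
      have hs : π (c * Units.map σ.toMonoidHom d) = π (d * Units.map τ.toMonoidHom c) := by
        have h1 := (hg.mul hh).mul (hh.mul hg).inv
        rw [hcomm, mul_inv_cancel] at h1
        have e : Units.map (τ * σ).toMonoidHom (Units.map (τ * σ)⁻¹.toMonoidHom
            (d * Units.map τ.toMonoidHom c)⁻¹) = (d * Units.map τ.toMonoidHom c)⁻¹ :=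
          Units.ext (RingEquiv.apply_symm_apply (τ * σ)
            (((d * Units.map τ.toMonoidHom c)⁻¹ : Fˣ) : F))
        rw [e] at h1
        have := hSB _ ⟨_, h1⟩
        rwa [map_mul, map_inv, mul_inv_eq_one] at this
      rw [map_mul, map_mul, hm, hn] at hs
      rw [map_mul, hn]
      rw [map_mul, hm] at hzz
      refine mul_inv_eq_one.1 ?_
      obtain ⟨w, hw⟩ := QuotientGroup.mk'_surjective B (π d * π z ^ n * (π z)⁻¹)
      rw [← hπ] at hw
      rw [← hw]
      refine huniq w ?_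
      rw [hw, zpow_sub, zpow_one, mul_inv_eq_one]
      exact affine_fixed (Q := Fˣ ⧸ B) (π c) (π d) (π z) n m hs hzz
    obtain ⟨g', d, τ', hg', hd⟩ := D.exists_acts_map z (w₀ * z)
    have := hfix g' d τ' hg'
    rw [hd, map_mul] at this
    exact hw₀ (mul_eq_right.1 this)

end Coords

end CfsgLib.TripleOrbits
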