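import Mathlib
import Cfsg.Agent.TripleOrbits15.Basic

/-!
Reduction to the fixed points of a Sylow 3-subgroup of a three-point stabiliser.
-/

set_option autoImplicit false
set_option linter.unusedSectionVars false
set_option linter.style.haveILetI false

open MulAction

namespace CfsgLib.TripleOrbits

variable {G Ω : Type*} [Group G] [Finite G] [MulAction G Ω] [Finite Ω] {H : Subgroup G}

/-- The fixed points of a subgroup. -/
def fixSet (Ω : Type*) [MulAction G Ω] (R : Subgroup G) : Set Ω := {x | ∀ g ∈ R, g • x = x}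

/-- A largest 3-subgroup of `A`. -/
def IsMaxThree (A R : Subgroup G) : Prop :=
  R ≤ A ∧ IsPGroup 3 R ∧ ∀ Q : Subgroup G, Q ≤ A → IsPGroup 3 Q → Nat.card Q ≤ Nat.card R

theorem exists_maxThree (A : Subgroup G) : ∃ R, IsMaxThree A R := by
  haveI : Fact (Nat.Prime 3) := ⟨Nat.prime_three⟩
  obtain ⟨P⟩ : Nonempty (Sylow 3 A) := inferInstance
  refine ⟨(P : Subgroup A).map A.subtype, Subgroup.map_subtype_le _, P.isPGroup'.map _, ?_⟩
  intro Q hQA hQ
  rw [Subgroup.card_map_of_injective A.subtype_injective]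
  have hQ' : IsPGroup 3 (Q.subgroupOf A) := hQ.of_equiv (Subgroup.subgroupOfEquivOfLe hQA).symm
  obtain ⟨P', hP'⟩ := hQ'.exists_le_sylow
  rw [← Nat.card_congr (Subgroup.subgroupOfEquivOfLe hQA).toEquiv, ← Sylow.card_eq_multiplicity P'
    |>.trans (Sylow.card_eq_multiplicity P).symm]
  exact Subgroup.card_le_of_le hP'

/-- Two largest 3-subgroups are conjugate. -/
theorem IsMaxThree.conj {A R R' : Subgroup G} (h : IsMaxThree A R) (hR' : R' ≤ A)
    (hp : IsPGroup 3 R') (hcard : Nat.card R' = Nat.card R) :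
    ∃ e ∈ A, R'.map (MulAut.conj e).toMonoidHom = R := by
  haveI : Fact (Nat.Prime 3) := ⟨Nat.prime_three⟩
  have key : ∀ Q : Subgroup G, Q ≤ A → IsPGroup 3 Q → Nat.card Q = Nat.card R →
      ∃ P : Sylow 3 A, (P : Subgroup A) = Q.subgroupOf A := by
    intro Q hQA hQ hc
    have hQ' : IsPGroup 3 (Q.subgroupOf A) := hQ.of_equiv (Subgroup.subgroupOfEquivOfLe hQA).symm
    obtain ⟨P, hP⟩ := hQ'.exists_le_sylow
    refine ⟨P, (Subgroup.eq_of_le_of_card_ge hP ?_).symm⟩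
    rw [Nat.card_congr (Subgroup.subgroupOfEquivOfLe hQA).toEquiv, hc,
      ← Subgroup.card_map_of_injective A.subtype_injective (K := (P : Subgroup A))]
    exact h.2.2 _ (Subgroup.map_subtype_le _) (P.isPGroup'.map _)
  obtain ⟨P, hP⟩ := key R h.1 h.2.1 rfl
  obtain ⟨P', hP'⟩ := key R' hR' hp hcard
  obtain ⟨e, he⟩ := exists_smul_eq A P' P
  refine ⟨(e : G), e.2, Subgroup.eq_of_le_of_card_ge ?_ ?_⟩
  · rintro _ ⟨x, hx, rfl⟩
    have hxA : (⟨x, hR' hx⟩ : A) ∈ (P' : Subgroup A) := by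
      rw [hP']; exact hx
    have h1 : e * ⟨x, hR' hx⟩ * e⁻¹ ∈ ((e • P' : Sylow 3 A) : Subgroup A) := by
      rw [Sylow.coe_subgroup_smul]
      exact Subgroup.smul_mem_pointwise_smul _ (MulAut.conj e) _ hxA
    rw [he, hP] at h1
    exact h1
  · rw [Subgroup.card_map_of_injective (MulAut.conj (e : G)).injective, hcard]

theorem mem_map_conj {g x : G} {Q : Subgroup G} :
    x ∈ Q.map (MulAut.conj g).toMonoidHom ↔ g⁻¹ * x * g ∈ Q := by
  constructor
  · rintro ⟨y, hy, rfl⟩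
    simpa [mul_assoc] using hy
  · intro h
    exact ⟨_, h, by simp [mul_assoc]⟩

variable (T : Triple G Ω H) {a b c : Ω} (hab : a ≠ b) (hca : c ≠ a) (hcb : c ≠ b)
  (h3 : 3 ∣ Nat.card Ω) {R : Subgroup G}
  (hR : IsMaxThree (pairIn H a b ⊓ stabilizer G c) R)

include T hab hca hcb h3 hR

/-- A largest 3-subgroup of a three-point stabiliser is one of the two-point stabiliser. -/
theorem maxThree_pair : IsMaxThree (pairIn H a b) R := by
  classical
  haveI : Fact (Nat.Prime 3) := ⟨Nat.prime_three⟩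
  refine ⟨hR.1.trans inf_le_left, hR.2.1, fun Q hQ hQp => ?_⟩
  let U := {x : Ω // x ≠ a ∧ x ≠ b}
  letI : MulAction Q U :=
    { smul := fun g x => ⟨(g : G) • (x : Ω),
        fun e => x.2.1 (smul_left_cancel (g : G) (e.trans (hQ g.2).2.1.symm)),
        fun e => x.2.2 (smul_left_cancel (g : G) (e.trans (hQ g.2).2.2.symm))⟩
      one_smul := fun x => Subtype.ext (one_smul G (x : Ω))
      mul_smul := fun g g' x => Subtype.ext (mul_smul (g : G) g' (x : Ω)) }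
  have hU : ¬ 3 ∣ Nat.card U := by
    haveI := Fintype.ofFinite Ω
    have hU' : Nat.card U = Nat.card Ω - 2 := by
      have e : Nat.card U = (({a, b} : Set Ω)ᶜ).ncard := by
        rw [← Nat.card_coe_set_eq]
        exact Nat.card_congr (Equiv.subtypeEquivRight fun x => by simp)
      rw [e, Set.ncard_compl, Set.ncard_pair hab]
    have : 0 < Nat.card Ω := by
      haveI : Nonempty Ω := ⟨a⟩
      exact Nat.card_pos
    rw [hU']; omega
  obtain ⟨x, hx⟩ := hQp.nonempty_fixed_point_of_prime_not_dvd_card U hU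
  obtain ⟨g, g1, g2, g3⟩ := T.three a b c a b x hab hca.symm hcb.symm hab x.2.1.symm x.2.2.symm
  have hle : Q.map (MulAut.conj g⁻¹).toMonoidHom ≤ pairIn H a b ⊓ stabilizer G c := by
    rintro _ ⟨q, hq, rfl⟩
    obtain ⟨qH, qa, qb⟩ := hQ hq
    refine ⟨⟨T.normal.conj_mem q qH g⁻¹, ?_, ?_⟩, ?_⟩
    · show (g⁻¹ * q * g⁻¹⁻¹) • a = a
      rw [inv_inv, mul_smul, mul_smul, g1, mem_stabilizer_iff.1 qa, inv_smul_eq_iff, g1]
    · show (g⁻¹ * q * g⁻¹⁻¹) • b = b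
      rw [inv_inv, mul_smul, mul_smul, g2, mem_stabilizer_iff.1 qb, inv_smul_eq_iff, g2]
    · show (g⁻¹ * q * g⁻¹⁻¹) • c = c
      rw [inv_inv, mul_smul, mul_smul, g3,
        show q • (x : Ω) = x from congrArg Subtype.val (hx ⟨q, hq⟩), inv_smul_eq_iff, g3]
  have := hR.2.2 _ hle (hQp.map _)
  rwa [Subgroup.card_map_of_injective (MulAut.conj g⁻¹).injective] at this

/-- Every point is carried to the fixed points by the two-point stabiliser. -/
theorem exists_smul_mem_fixSet {x : Ω} (hxa : x ≠ a) (hxb : x ≠ b) :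
    ∃ e ∈ pairIn H a b, e • x ∈ fixSet Ω R := by
  obtain ⟨g, g1, g2, g3⟩ := T.three a b c a b x hab hca.symm hcb.symm hab hxa.symm hxb.symm
  have hfix : ∀ r ∈ R.map (MulAut.conj g).toMonoidHom, r ∈ pairIn H a b ∧ r • x = x := by
    rintro _ ⟨r, hr, rfl⟩
    obtain ⟨⟨rH, ra, rb⟩, rc⟩ := hR.1 hr
    refine ⟨⟨T.normal.conj_mem r rH g, ?_, ?_⟩, ?_⟩
    · show (g * r * g⁻¹) • a = a
      rw [mul_smul, mul_smul, inv_smul_eq_iff.2 g1.symm, mem_stabilizer_iff.1 ra, g1]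
    · show (g * r * g⁻¹) • b = b
      rw [mul_smul, mul_smul, inv_smul_eq_iff.2 g2.symm, mem_stabilizer_iff.1 rb, g2]
    · show (g * r * g⁻¹) • x = x
      rw [mul_smul, mul_smul, inv_smul_eq_iff.2 g3.symm, mem_stabilizer_iff.1 rc, g3]
  obtain ⟨e, he, hmap⟩ := (maxThree_pair T hab hca hcb h3 hR).conj (fun r hr => (hfix r hr).1)
    (hR.2.1.map _) (Subgroup.card_map_of_injective (MulAut.conj g).injective)
  refine ⟨e, he, fun r hr => ?_⟩
  rw [← hmap, mem_map_conj] at hr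
  have := (hfix _ hr).2
  rwa [mul_smul, mul_smul, inv_smul_eq_iff] at this

theorem mem_fixSet_abc : a ∈ fixSet Ω R ∧ b ∈ fixSet Ω R ∧ c ∈ fixSet Ω R :=
  ⟨fun g hg => (hR.1 hg).1.2.1, fun g hg => (hR.1 hg).1.2.2, fun g hg => (hR.1 hg).2⟩

/-- Witt: the normaliser is triply transitive on the fixed points. -/
theorem exists_normalizer_three {a' b' c' : Ω} (ha : a' ∈ fixSet Ω R) (hb : b' ∈ fixSet Ω R)
    (hc : c' ∈ fixSet Ω R) (h1 : a' ≠ b') (h2 : a' ≠ c') (h4 : b' ≠ c') :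
    ∃ g ∈ Subgroup.normalizer (R : Set G), g • a = a' ∧ g • b = b' ∧ g • c = c' := by
  obtain ⟨g, g1, g2, g3⟩ := T.three a b c a' b' c' hab hca.symm hcb.symm h1 h2 h4
  have hle : R.map (MulAut.conj g⁻¹).toMonoidHom ≤ pairIn H a b ⊓ stabilizer G c := by
    rintro _ ⟨r, hr, rfl⟩
    refine ⟨⟨T.normal.conj_mem r (hR.1 hr).1.1 g⁻¹, ?_, ?_⟩, ?_⟩
    · show (g⁻¹ * r * g⁻¹⁻¹) • a = a
      rw [inv_inv, mul_smul, mul_smul, g1, ha r hr, inv_smul_eq_iff, g1]
    · show (g⁻¹ * r * g⁻¹⁻¹) • b = b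
      rw [inv_inv, mul_smul, mul_smul, g2, hb r hr, inv_smul_eq_iff, g2]
    · show (g⁻¹ * r * g⁻¹⁻¹) • c = c
      rw [inv_inv, mul_smul, mul_smul, g3, hc r hr, inv_smul_eq_iff, g3]
  obtain ⟨k, hk, hmap⟩ := hR.conj hle (hR.2.1.map _)
    (Subgroup.card_map_of_injective (MulAut.conj g⁻¹).injective)
  obtain ⟨⟨kH, ka, kb⟩, kc⟩ := hk
  refine ⟨g * k⁻¹, ?_, by rw [mul_smul, inv_smul_eq_iff.2 ka.symm, g1],
    by rw [mul_smul, inv_smul_eq_iff.2 kb.symm, g2], by rw [mul_smul, inv_smul_eq_iff.2 kc.symm, g3]⟩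
  rw [show g * k⁻¹ = (k * g⁻¹)⁻¹ by group]
  refine (Subgroup.normalizer (R : Set G)).inv_mem (Subgroup.mem_normalizer_iff.2 fun r => ?_)
  rw [show k * g⁻¹ * r * (k * g⁻¹)⁻¹ = k * (g⁻¹ * r * g) * k⁻¹ by group]
  conv_rhs => rw [← hmap, mem_map_conj, mem_map_conj]
  rw [show g⁻¹⁻¹ * (k⁻¹ * (k * (g⁻¹ * r * g) * k⁻¹) * k) * g⁻¹ = r by group]

/-- The normaliser is doubly transitive within `H` on the fixed points. -/
theorem exists_normalizer_two {a' b' c' d' : Ω} (ha : a' ∈ fixSet Ω R) (hb : b' ∈ fixSet Ω R)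
    (hc : c' ∈ fixSet Ω R) (hd : d' ∈ fixSet Ω R) (h1 : a' ≠ b') (h2 : c' ≠ d') :
    ∃ g ∈ Subgroup.normalizer (R : Set G), g ∈ H ∧ g • a' = c' ∧ g • b' = d' := by
  -- carry both pairs to `(a, b)`
  have main : ∀ {u v : Ω}, u ∈ fixSet Ω R → v ∈ fixSet Ω R → u ≠ v →
      ∃ g ∈ Subgroup.normalizer (R : Set G), g ∈ H ∧ g • a = u ∧ g • b = v := by
    intro u v hu hv huv
    obtain ⟨h, hh, h0, h1⟩ := T.two a b u v hab huv
    have hle : R.map (MulAut.conj h⁻¹).toMonoidHom ≤ pairIn H a b := by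
      rintro _ ⟨r, hr, rfl⟩
      refine ⟨T.normal.conj_mem r (hR.1 hr).1.1 h⁻¹, ?_, ?_⟩
      · show (h⁻¹ * r * h⁻¹⁻¹) • a = a
        rw [inv_inv, mul_smul, mul_smul, h0, hu r hr, inv_smul_eq_iff, h0]
      · show (h⁻¹ * r * h⁻¹⁻¹) • b = b
        rw [inv_inv, mul_smul, mul_smul, h1, hv r hr, inv_smul_eq_iff, h1]
    obtain ⟨k, hk, hmap⟩ := (maxThree_pair T hab hca hcb h3 hR).conj hle (hR.2.1.map _)
      (Subgroup.card_map_of_injective (MulAut.conj h⁻¹).injective)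
    refine ⟨h * k⁻¹, ?_, H.mul_mem hh (H.inv_mem hk.1),
      by rw [mul_smul, inv_smul_eq_iff.2 hk.2.1.symm, h0],
      by rw [mul_smul, inv_smul_eq_iff.2 hk.2.2.symm, h1]⟩
    rw [show h * k⁻¹ = (k * h⁻¹)⁻¹ by group]
    refine (Subgroup.normalizer (R : Set G)).inv_mem (Subgroup.mem_normalizer_iff.2 fun r => ?_)
    rw [show k * h⁻¹ * r * (k * h⁻¹)⁻¹ = k * (h⁻¹ * r * h) * k⁻¹ by group]
    conv_rhs => rw [← hmap, mem_map_conj, mem_map_conj]
    rw [show h⁻¹⁻¹ * (k⁻¹ * (k * (h⁻¹ * r * h) * k⁻¹) * k) * h⁻¹ = r by group]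
  obtain ⟨g, hgN, hgH, g1, g2⟩ := main ha hb h1
  obtain ⟨g', hgN', hgH', g1', g2'⟩ := main hc hd h2
  exact ⟨g' * g⁻¹, (Subgroup.normalizer (R : Set G)).mul_mem hgN'
      ((Subgroup.normalizer (R : Set G)).inv_mem hgN), H.mul_mem hgH' (H.inv_mem hgH),
    by rw [mul_smul, inv_smul_eq_iff.2 g1.symm, g1'], by rw [mul_smul, inv_smul_eq_iff.2 g2.symm, g2']⟩

end CfsgLib.TripleOrbits
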