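import Mathlib
import Cfsg.Agent.TripleOrbits15.Reduction
import Cfsg.Agent.Perm57.Wagner

/-!
The induction on the degree.
-/

set_option autoImplicit false
set_option linter.unusedSectionVars false
set_option linter.style.haveILetI false

open MulAction

namespace CfsgLib.TripleOrbits

universe u v

/-- Two orbits suffice for an even degree and three-point stabilisers of order prime to three. -/
def BaseCase : Prop :=
  ∀ (G : Type u) (Ω : Type v) [Group G] [Finite G] [MulAction G Ω] [Finite Ω] (H : Subgroup G),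
    Triple G Ω H → 3 ∣ Nat.card Ω → Even (Nat.card Ω) → 3 < Nat.card Ω →
    ∀ a b c : Ω, a ≠ b → c ≠ a → c ≠ b → ¬ 3 ∣ Nat.card ↥(pairIn H a b ⊓ stabilizer G c) →
    ∃ c' d', Covers H a b c' d'

theorem Triple.pretransitive {G Ω : Type*} [Group G] [MulAction G Ω] {H : Subgroup G}
    (T : Triple G Ω H) : IsMultiplyPretransitive G Ω 3 := by
  rw [isMultiplyPretransitive_iff]
  intro x y
  obtain ⟨g, g0, g1, g2⟩ := T.three (x 0) (x 1) (x 2) (y 0) (y 1) (y 2)
    (x.injective.ne (by decide)) (x.injective.ne (by decide)) (x.injective.ne (by decide))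
    (y.injective.ne (by decide)) (y.injective.ne (by decide)) (y.injective.ne (by decide))
  refine ⟨g, ?_⟩
  ext i : 1
  show g • x i = y i
  fin_cases i <;> assumption

/-- One orbit gives a covering. -/
theorem covers_of_three {G Ω : Type*} [Group G] [MulAction G Ω] {H : Subgroup G} {a b c : Ω}
    (h : IsMultiplyPretransitive H Ω 3) (hab : a ≠ b) (hca : c ≠ a) (hcb : c ≠ b) :
    Covers H a b c c := by
  refine ⟨hca, hcb, hca, hcb, fun x hxa hxb => ?_⟩
  have inj : ∀ {z : Ω}, z ≠ a → z ≠ b → Function.Injective ![a, b, z] := by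
    intro z h1 h2 i j hij
    fin_cases i <;> fin_cases j <;> first
      | rfl
      | exact absurd hij hab
      | exact absurd hij hab.symm
      | exact absurd hij h1.symm
      | exact absurd hij h1
      | exact absurd hij h2.symm
      | exact absurd hij h2
  haveI := h
  obtain ⟨g, hg⟩ := exists_smul_eq H (⟨![a, b, c], inj hca hcb⟩ : Fin 3 ↪ Ω)
    ⟨![a, b, x], inj hxa hxb⟩
  exact ⟨(g : G), ⟨g.2, congrArg (fun f : Fin 3 ↪ Ω => f 0) hg,
    congrArg (fun f : Fin 3 ↪ Ω => f 1) hg⟩, Or.inl (congrArg (fun f : Fin 3 ↪ Ω => f 2) hg)⟩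

theorem exists_covers_aux (hbase : BaseCase.{u, v}) : ∀ (n : ℕ) (G : Type u) (Ω : Type v) [Group G]
    [Finite G] [MulAction G Ω] [Finite Ω] (H : Subgroup G), Nat.card Ω = n → Triple G Ω H →
    3 ∣ Nat.card Ω → 3 < Nat.card Ω → ∀ a b : Ω, a ≠ b → ∃ c d, Covers H a b c d := by
  intro n
  induction n using Nat.strong_induction_on with
  | _ n ih =>
  intro G Ω _ _ _ _ H hn T h3 h4 a b hab
  classical
  haveI := Fintype.ofFinite Ω
  obtain ⟨c, hca, hcb⟩ : ∃ c, c ≠ a ∧ c ≠ b := by
    by_contra h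
    push Not at h
    have hle : Nat.card Ω ≤ 2 := by
      rw [← Set.ncard_univ]
      refine (Set.ncard_le_ncard (t := {a, b}) (fun x _ => ?_) (Set.toFinite _)).trans
        (Set.ncard_pair hab).le
      by_cases hx : x = a
      · exact Or.inl hx
      · exact Or.inr (h x hx)
    omega
  rcases Nat.even_or_odd (Nat.card Ω) with heven | hodd
  swap
  · -- odd degree: Wagner's theorem
    haveI : FaithfulSMul G Ω := ⟨fun {g g'} h => by
      refine (inv_mul_eq_one.1 (T.faithful (g'⁻¹ * g) fun y => ?_)).symm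
      rw [mul_smul, h, inv_smul_smul]⟩
    haveI := T.normal
    have hH : H ≠ ⊥ := by
      rintro rfl
      obtain ⟨h, hh, h1, -⟩ := T.two a b b a hab hab.symm
      rw [Subgroup.mem_bot.1 hh, one_smul] at h1
      exact hab h1
    rw [Nat.card_eq_fintype_card] at hodd h4
    exact ⟨c, c, covers_of_three (CfsgLib.Perm57.wagner_odd_degree hodd
      (by obtain ⟨k, hk⟩ := hodd; omega) T.pretransitive H hH) hab hca hcb⟩
  by_cases h0 : ¬ 3 ∣ Nat.card ↥(pairIn H a b ⊓ stabilizer G c)
  · exact hbase G Ω H T h3 heven h4 a b c hab hca hcb h0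
  rw [not_not] at h0
  haveI : Fact (Nat.Prime 3) := ⟨Nat.prime_three⟩
  obtain ⟨R, hR⟩ := exists_maxThree (pairIn H a b ⊓ stabilizer G c)
  obtain ⟨g, hg⟩ := exists_prime_orderOf_dvd_card' 3 h0
  have hR1 : R ≠ ⊥ := by
    rintro rfl
    have hQ : IsPGroup 3 (Subgroup.zpowers (g : G)) := IsPGroup.of_card (n := 1) (by
      rw [Nat.card_zpowers, Subgroup.orderOf_coe, hg, pow_one])
    have h := hR.2.2 _ (Subgroup.zpowers_le.2 g.2) hQ
    rw [Nat.card_zpowers, Subgroup.orderOf_coe, hg, Subgroup.card_bot] at h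
    omega
  set Δ := {x : Ω // x ∈ fixSet Ω R} with hΔ
  obtain ⟨haΔ, hbΔ, hcΔ⟩ := mem_fixSet_abc T hab hca hcb h3 hR
  -- the size of the fixed point set
  have hΔ3 : 3 ∣ Nat.card Δ := by
    have hm := hR.2.1.card_modEq_card_fixedPoints (α := Ω)
    have e : fixedPoints R Ω = fixSet Ω R := Set.ext fun x =>
      ⟨fun h g hg => h ⟨g, hg⟩, fun h g => h g g.2⟩
    rw [e] at hm
    exact Nat.modEq_zero_iff_dvd.1 (hm.symm.trans (Nat.modEq_zero_iff_dvd.2 h3))
  have hΔlt : Nat.card Δ < n := by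
    rw [← hn]
    refine lt_of_le_of_ne (Nat.card_le_card_of_injective _ Subtype.val_injective) fun e => hR1 ?_
    refine (Subgroup.eq_bot_iff_forall _).2 fun g hg => T.faithful g fun y => ?_
    have hs : Function.Surjective (Subtype.val : Δ → Ω) :=
      ((Nat.bijective_iff_injective_and_card _).2 ⟨Subtype.val_injective, e⟩).2
    obtain ⟨y', rfl⟩ := hs y
    exact y'.2 g hg
  by_cases hΔ4 : 3 < Nat.card Δ
  swap
  · -- only three fixed points
    refine ⟨c, c, hca, hcb, hca, hcb, fun x hxa hxb => ?_⟩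
    obtain ⟨e, he, hex⟩ := exists_smul_mem_fixSet T hab hca hcb h3 hR hxa hxb
    have hc' : e • x = c := by
      by_contra hne
      have hna : e • x ≠ a := fun h => hxa (smul_left_cancel e (h.trans he.2.1.symm))
      have hnb : e • x ≠ b := fun h => hxb (smul_left_cancel e (h.trans he.2.2.symm))
      let f : Fin 4 → Δ := ![⟨a, haΔ⟩, ⟨b, hbΔ⟩, ⟨c, hcΔ⟩, ⟨e • x, hex⟩]
      have hf : Function.Injective f := by
        intro i j hij
        have h' := congrArg Subtype.val hij
        fin_cases i <;> fin_cases j <;> first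
          | rfl
          | exact absurd h' hab
          | exact absurd h' hab.symm
          | exact absurd h' hca
          | exact absurd h' hca.symm
          | exact absurd h' hcb
          | exact absurd h' hcb.symm
          | exact absurd h' hna
          | exact absurd h' hna.symm
          | exact absurd h' hnb
          | exact absurd h' hnb.symm
          | exact absurd h' hne
          | exact absurd h' (Ne.symm hne)
      have := Nat.card_le_card_of_injective f hf
      rw [Nat.card_eq_fintype_card, Fintype.card_fin] at this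
      omega
    exact ⟨e⁻¹, (pairIn H a b).inv_mem he, Or.inl (inv_smul_eq_iff.2 hc'.symm)⟩
  -- the action on the fixed points
  set N := Subgroup.normalizer (R : Set G) with hN
  letI actN : MulAction N Δ :=
    { smul := fun g x => ⟨(g : G) • (x : Ω), fun r hr => by
        have : (g : G)⁻¹ * r * g ∈ R := by
          have := (Subgroup.mem_normalizer_iff.1 (N.inv_mem g.2) r).1 hr
          rwa [inv_inv] at this
        have h' := x.2 _ this
        rwa [mul_smul, mul_smul, inv_smul_eq_iff] at h'⟩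
      one_smul := fun x => Subtype.ext (one_smul G (x : Ω))
      mul_smul := fun g g' x => Subtype.ext (mul_smul (g : G) g' (x : Ω)) }
  let φ := MulAction.toPermHom N Δ
  letI : MulAction (N ⧸ φ.ker) Δ := MulAction.compHom Δ (QuotientGroup.kerLift φ)
  let H' : Subgroup (N ⧸ φ.ker) := (H.subgroupOf N).map (QuotientGroup.mk' φ.ker)
  have hsm : ∀ (g : N) (x : Δ), ((QuotientGroup.mk' φ.ker g) • x : Δ) = g • x := fun g x => rfl
  have T' : Triple (N ⧸ φ.ker) Δ H' := by
    refine ⟨fun q hq => ?_, fun a₁ b₁ c₁ a₂ b₂ c₂ d1 d2 d3 d4 d5 d6 => ?_, ?_,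
      fun a₁ b₁ a₂ b₂ d1 d2 => ?_⟩
    · obtain ⟨g, rfl⟩ := QuotientGroup.mk'_surjective φ.ker q
      exact (QuotientGroup.eq_one_iff _).2 (MonoidHom.mem_ker.2 (Equiv.ext fun x => hq x))
    · have ne : ∀ {u w : Δ}, u ≠ w → (u : Ω) ≠ w := fun h e => h (Subtype.ext e)
      obtain ⟨g, hg, g1, g2, g3⟩ := exists_normalizer_three T hab hca hcb h3 hR a₁.2 b₁.2 c₁.2
        (ne d1) (ne d2) (ne d3)
      obtain ⟨g', hg', g1', g2', g3'⟩ := exists_normalizer_three T hab hca hcb h3 hR a₂.2 b₂.2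
        c₂.2 (ne d4) (ne d5) (ne d6)
      refine ⟨QuotientGroup.mk' φ.ker ⟨g' * g⁻¹, N.mul_mem hg' (N.inv_mem hg)⟩, ?_, ?_, ?_⟩ <;>
        rw [hsm] <;> apply Subtype.ext
      · show (g' * g⁻¹) • (a₁ : Ω) = a₂
        rw [mul_smul, inv_smul_eq_iff.2 g1.symm, g1']
      · show (g' * g⁻¹) • (b₁ : Ω) = b₂
        rw [mul_smul, inv_smul_eq_iff.2 g2.symm, g2']
      · show (g' * g⁻¹) • (c₁ : Ω) = c₂
        rw [mul_smul, inv_smul_eq_iff.2 g3.symm, g3']
    · haveI := T.normal
      exact Subgroup.Normal.map inferInstance _ (QuotientGroup.mk'_surjective _)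
    · obtain ⟨g, hgN, hgH, g1, g2⟩ := exists_normalizer_two T hab hca hcb h3 hR a₁.2 b₁.2 a₂.2
        b₂.2 (fun e => d1 (Subtype.ext e)) (fun e => d2 (Subtype.ext e))
      exact ⟨_, ⟨⟨g, hgN⟩, hgH, rfl⟩, Subtype.ext g1, Subtype.ext g2⟩
  obtain ⟨c', d', hc'a, hc'b, hd'a, hd'b, hcov⟩ := ih _ hΔlt (N ⧸ φ.ker) Δ H' rfl T' hΔ3 hΔ4
    ⟨a, haΔ⟩ ⟨b, hbΔ⟩ (fun e => hab (congrArg Subtype.val e))
  refine ⟨c', d', fun e => hc'a (Subtype.ext e), fun e => hc'b (Subtype.ext e),
    fun e => hd'a (Subtype.ext e), fun e => hd'b (Subtype.ext e), fun x hxa hxb => ?_⟩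
  obtain ⟨e, he, hex⟩ := exists_smul_mem_fixSet T hab hca hcb h3 hR hxa hxb
  obtain ⟨_, ⟨⟨m, hmH, rfl⟩, hma, hmb⟩, hm⟩ := hcov ⟨e • x, hex⟩
    (fun h => hxa (smul_left_cancel e ((congrArg Subtype.val h).trans he.2.1.symm)))
    (fun h => hxb (smul_left_cancel e ((congrArg Subtype.val h).trans he.2.2.symm)))
  have hme : (m : G) ∈ pairIn H a b := ⟨hmH, congrArg Subtype.val hma, congrArg Subtype.val hmb⟩
  refine ⟨e⁻¹ * m, (pairIn H a b).mul_mem ((pairIn H a b).inv_mem he) hme, hm.imp ?_ ?_⟩ <;>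
  · intro h
    rw [mul_smul, inv_smul_eq_iff]
    exact congrArg Subtype.val h

theorem exists_covers (hbase : BaseCase.{u, v}) {G : Type u} {Ω : Type v} [Group G] [Finite G]
    [MulAction G Ω] [Finite Ω] {H : Subgroup G} (T : Triple G Ω H) (h3 : 3 ∣ Nat.card Ω)
    (h4 : 3 < Nat.card Ω) {a b : Ω} (hab : a ≠ b) : ∃ c d, Covers H a b c d :=
  exists_covers_aux hbase _ G Ω H rfl T h3 h4 a b hab

end CfsgLib.TripleOrbits
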