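import Mathlib
import Cfsg.Agent.TripleOrbits15.Full

/-!
A doubly transitive normal subgroup contains the squares among the scalars; for fields of order
three modulo four the swap is the inversion.
-/

set_option autoImplicit false
set_option linter.unusedSectionVars false

open MulAction

namespace CfsgLib.TripleOrbits

theorem comm_cancel {A : Type*} [CommGroup A] (b u v : A) : b * u * (b * v)⁻¹ = u * v⁻¹ := by
  rw [mul_inv_rev, mul_comm b u, mul_assoc, ← mul_assoc b, mul_comm b v⁻¹, mul_assoc v⁻¹,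
    mul_inv_cancel, mul_one]

theorem comm_square {A : Type*} [CommGroup A] (b v : A) : b * b = b * v * (v * b⁻¹)⁻¹ := by
  rw [mul_inv_rev, inv_inv, mul_comm b v⁻¹, ← mul_assoc, mul_inv_cancel_right]

theorem comm_telescope {A : Type*} [CommGroup A] (x y z w : A) :
    w * z⁻¹ = w * x⁻¹ * ((z * y)⁻¹ * (y * x)) := by
  rw [mul_inv_rev, mul_comm y x, mul_comm y⁻¹ z⁻¹, mul_assoc z⁻¹, ← mul_assoc y⁻¹, mul_comm y⁻¹ x,
    mul_assoc x, inv_mul_cancel, mul_one, mul_comm z⁻¹ x, ← mul_assoc, inv_mul_cancel_right]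

namespace Coords

variable {G Ω F : Type*} [Group G] [MulAction G Ω] [Field F] {D : Coords G Ω F}
  [Finite G] [Finite F] {t : G}

/-- The product of a scalar and its image under the swap. -/
noncomputable def Swap.eps (ht : D.Swap t) : Fˣ →* Fˣ :=
  MonoidHom.id Fˣ * ht.theta.comp
    ((MonoidHom.id Fˣ).codRestrict D.S fun x => by rw [D.S_eq_top]; exact Subgroup.mem_top _)

theorem Swap.eps_apply (ht : D.Swap t) (a : Fˣ) :
    ht.eps a = a * ht.theta ⟨a, D.S_eq_top ▸ Subgroup.mem_top a⟩ := rfl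

theorem Swap.eps_cases (ht : D.Swap t) (a : Fˣ) : ht.eps a = 1 ∨ ht.eps a = -1 :=
  ht.theta_mul_self ⟨a, D.S_eq_top ▸ Subgroup.mem_top a⟩

theorem Swap.eps_sq (ht : D.Swap t) (a : Fˣ) : ht.eps (a ^ 2) = 1 := by
  rw [map_pow]
  rcases ht.eps_cases a with h | h <;> rw [h] <;> simp

theorem Swap.eps_neg_one (ht : D.Swap t) : ht.eps (-1) = 1 := by
  have h := ht.smul_scalar ⟨-1, D.S_eq_top ▸ Subgroup.mem_top (-1 : Fˣ)⟩
  rw [Units.val_neg, Units.val_one, ht.at_neg] at h
  have h' : ((-1 : Fˣ) : F) = (ht.theta ⟨-1, D.S_eq_top ▸ Subgroup.mem_top (-1 : Fˣ)⟩ : Fˣ) := by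
    rw [Units.val_neg, Units.val_one]; exact D.inj h
  rw [ht.eps_apply, ← Units.ext h']
  simp

theorem Swap.smul_eq (ht : D.Swap t) (a : Fˣ) :
    t • D.pt (a : F) = D.pt ((ht.eps a * a⁻¹ : Fˣ) : F) := by
  rw [ht.eps_apply, mul_comm a, mul_inv_cancel_right]
  exact ht.smul_scalar ⟨a, D.S_eq_top ▸ Subgroup.mem_top a⟩

/-- For a field of order three modulo four, the swap inverts. -/
theorem Swap.inversion (ht : D.Swap t) (hq : Nat.card Fˣ % 4 = 2) (a : Fˣ) :
    t • D.pt (a : F) = D.pt ((a⁻¹ : Fˣ) : F) := by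
  rw [ht.smul_eq]
  suffices h : ht.eps a = 1 by rw [h, one_mul]
  set n := Nat.card Fˣ / 2 with hn
  obtain ⟨k, hk⟩ : Odd n := ⟨Nat.card Fˣ / 4, by omega⟩
  have h1 : (a ^ n) ^ 2 = 1 := by
    rw [← pow_mul, show n * 2 = Nat.card Fˣ by omega, pow_card_eq_one']
  have h2 : ht.eps (a ^ n) = 1 := by
    rcases mul_self_eq_one_iff.1 (show ((a ^ n : Fˣ) : F) * (a ^ n : Fˣ) = 1 by
      rw [← Units.val_mul, ← pow_two, h1, Units.val_one]) with e | e
    · rw [show a ^ n = 1 from Units.ext (by rw [e, Units.val_one]), map_one]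
    · rw [show a ^ n = -1 from Units.ext (by rw [e, Units.val_neg, Units.val_one]), ht.eps_neg_one]
  rwa [map_pow, hk, pow_add, pow_mul, show ht.eps a ^ 2 = 1 by rw [← map_pow, ht.eps_sq],
    one_pow, one_mul, pow_one] at h2

variable (D)

/-- The scalars in a subgroup. -/
def scalarsIn (H : Subgroup G) : Subgroup Fˣ where
  carrier := {a | ∃ g ∈ H, D.Acts g a 1}
  one_mem' := ⟨1, H.one_mem, acts_one⟩
  mul_mem' := fun {a b} ⟨g, hgH, hg⟩ ⟨h, hhH, hh⟩ =>
    ⟨g * h, H.mul_mem hgH hhH, D.acts_mul_scalar hg hh⟩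
  inv_mem' := fun {a} ⟨g, hgH, hg⟩ => ⟨g⁻¹, H.inv_mem hgH, by
    have := hg.inv; rwa [inv_one, map_one_units] at this⟩

/-- A normal subgroup with an element exchanging `i` and the origin contains the squares. -/
theorem sq_mem_scalarsIn (H : Subgroup G) [H.Normal]
    (hswap : ∃ h ∈ H, h • D.i = D.pt 0 ∧ h • D.pt 0 = D.i) (a : Fˣ) :
    a ^ 2 ∈ D.scalarsIn H := by
  obtain ⟨t, ht⟩ := D.exists_swap
  obtain ⟨k, hkH, hki, hk0⟩ := hswap
  set M := D.scalarsIn H with hM
  have hx₀ : k⁻¹ * t ∈ D.X := by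
    rw [mem_X, mul_smul, mul_smul, ht.at_i, ht.at_zero]
    exact ⟨inv_smul_eq_iff.2 hki.symm, inv_smul_eq_iff.2 hk0.symm⟩
  obtain ⟨c, σ, hc⟩ := D.exists_acts hx₀
  -- the basic relation
  have hrel : ∀ b : Fˣ, ht.eps b * (b * Units.map σ.toMonoidHom b)⁻¹ ∈ M := by
    intro b
    obtain ⟨g, hg⟩ : b ∈ D.S := D.S_eq_top ▸ Subgroup.mem_top b
    have hy : D.Acts (k⁻¹ * t * g * (k⁻¹ * t)⁻¹) (Units.map σ.toMonoidHom b) 1 := by
      have h1 := (hc.mul hg).mul hc.inv
      rw [mul_one, mul_inv_cancel] at h1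
      have : Units.map σ.toMonoidHom (Units.map σ⁻¹.toMonoidHom c⁻¹) = c⁻¹ :=
        Units.ext (RingEquiv.apply_symm_apply σ ((c⁻¹ : Fˣ) : F))
      rwa [this, mul_comm c, mul_inv_cancel_right] at h1
    have h2 := D.acts_mul_scalar (ht.theta_acts hg) hy.inv
    rw [inv_one, map_one_units] at h2
    refine ⟨t * g * t * (k⁻¹ * t * g * (k⁻¹ * t)⁻¹)⁻¹, ?_, ?_⟩
    · have e : t * g * t * (k⁻¹ * t * g * (k⁻¹ * t)⁻¹)⁻¹ =
          t * g * t * k⁻¹ * (t * g * t)⁻¹ * k := by
        simp only [mul_inv_rev, inv_inv, ht.inv_eq, mul_assoc]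
      rw [e]
      exact H.mul_mem (‹H.Normal›.conj_mem _ (H.inv_mem hkH) _) hkH
    · convert h2 using 1
      rw [ht.eps_apply]
      exact comm_cancel b _ _
  have hMσ : ∀ b ∈ M, Units.map σ.toMonoidHom b ∈ M := by
    rintro b ⟨g, hgH, hg⟩
    refine ⟨k⁻¹ * t * g * (k⁻¹ * t)⁻¹, ‹H.Normal›.conj_mem g hgH _, ?_⟩
    have h1 := (hc.mul hg).mul hc.inv
    rw [mul_one, mul_inv_cancel] at h1
    have : Units.map σ.toMonoidHom (Units.map σ⁻¹.toMonoidHom c⁻¹) = c⁻¹ :=
      Units.ext (RingEquiv.apply_symm_apply σ ((c⁻¹ : Fˣ) : F))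
    rwa [this, mul_comm c, mul_inv_cancel_right] at h1
  have hsq : ∀ b : Fˣ, b ^ 2 * Units.map σ.toMonoidHom (b ^ 2) ∈ M := by
    intro b
    have := hrel (b ^ 2)
    rwa [ht.eps_sq, one_mul, inv_mem_iff] at this
  have htwo : ∀ (n : ℕ) (b : Fˣ),
      Units.map (σ ^ (2 * n)).toMonoidHom (b ^ 2) * (b ^ 2)⁻¹ ∈ M := by
    intro n
    induction n with
    | zero => intro b; rw [mul_zero, pow_zero, map_one_units, mul_inv_cancel]; exact M.one_mem
    | succ n ih =>
      intro b
      have h1 := ih (Units.map σ.toMonoidHom (Units.map σ.toMonoidHom b))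
      have h2 := M.mul_mem (M.inv_mem (hsq b)) (hMσ _ (hsq b))
      have e : Units.map (σ ^ (2 * (n + 1))).toMonoidHom (b ^ 2) =
          Units.map (σ ^ (2 * n)).toMonoidHom
            (Units.map σ.toMonoidHom (Units.map σ.toMonoidHom (b ^ 2))) := by
        rw [show 2 * (n + 1) = 2 * n + 2 by ring, pow_add, pow_two σ]
        exact Units.ext rfl
      rw [e, map_pow, map_pow]
      have := M.mul_mem h1 h2
      convert this using 1
      simp only [map_mul, map_pow]
      exact comm_telescope _ _ _ _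
  have hfour : ∀ b : Fˣ, (b ^ 2) ^ 2 ∈ M := by
    intro b
    obtain ⟨f, hf⟩ := D.autOdd σ
    have h1 := htwo (f + 1) b
    rw [show 2 * (f + 1) = orderOf σ + 1 by omega, pow_add, pow_orderOf_eq_one, one_mul,
      pow_one] at h1
    have := M.mul_mem (hsq b) (M.inv_mem h1)
    convert this using 1
    rw [pow_two (b ^ 2)]
    exact comm_square _ _
  obtain ⟨γ, hγ⟩ := IsCyclic.exists_generator (α := Fˣ)
  obtain ⟨j, rfl⟩ := Subgroup.mem_zpowers_iff.1 (hγ a)
  suffices h : γ ^ 2 ∈ M by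
    rw [← zpow_natCast, ← zpow_mul, mul_comm, zpow_mul, zpow_natCast]
    exact M.zpow_mem h j
  have hord : orderOf γ = Nat.card Fˣ := orderOf_eq_card_of_forall_mem_zpowers hγ
  have hev : 2 ∣ Nat.card Fˣ := by
    have h : orderOf (-1 : Fˣ) = 2 := orderOf_eq_prime (by simp) fun h =>
      D.neg_one_ne (by simpa using congrArg Units.val h)
    exact h ▸ orderOf_dvd_natCard _
  by_cases h4 : 4 ∣ Nat.card Fˣ
  · set n := Nat.card Fˣ / 4 with hn
    set ι := γ ^ n with hι
    have hnn : Nat.card Fˣ = n * 4 := (Nat.div_mul_cancel h4).symm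
    have hιord : orderOf ι = 4 := by
      rw [hι, orderOf_pow, hord, Nat.gcd_eq_right ⟨4, hnn⟩, hnn,
        Nat.mul_div_cancel_left _ (by have := Nat.card_pos (α := Fˣ); omega)]
    have hι2 : ι * ι = -1 := by
      have h1 : ((ι * ι : Fˣ) : F) * (ι * ι : Fˣ) = 1 := by
        rw [← Units.val_mul, show ι * ι * (ι * ι) = ι ^ orderOf ι by
          rw [hιord, pow_succ, pow_succ, pow_succ, pow_one, mul_assoc (ι * ι)],
          pow_orderOf_eq_one, Units.val_one]
      rcases mul_self_eq_one_iff.1 h1 with e | e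
      · exfalso
        have h3 : ι ^ 2 = 1 := by rw [pow_two]; exact Units.ext (e.trans Units.val_one.symm)
        have := Nat.le_of_dvd (by norm_num) (orderOf_dvd_of_pow_eq_one h3)
        omega
      · exact Units.ext (e.trans (by simp))
    -- the automorphism fixes `ι`
    have hσι : Units.map σ.toMonoidHom ι = ι := by
      have h1 : (σ (ι : F)) * σ ι = (ι : F) * ι := by
        rw [← map_mul, ← Units.val_mul, hι2]; simp
      rcases mul_self_eq_mul_self_iff.1 h1 with e | e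
      · exact Units.ext e
      · exfalso
        have hpow : ∀ i : ℕ, (σ ^ i) (ι : F) = (-1) ^ i * ι := by
          intro i
          induction i with
          | zero => rw [pow_zero, pow_zero, one_mul]; rfl
          | succ i ih =>
            rw [pow_succ' σ]
            show σ ((σ ^ i) (ι : F)) = _
            rw [ih, map_mul, map_pow, map_neg, map_one, e, pow_succ]; ring
        obtain ⟨f, hf⟩ := D.autOdd σ
        have h2 := hpow (orderOf σ)
        rw [pow_orderOf_eq_one, hf] at h2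
        simp [pow_add, pow_mul] at h2
        exact D.two (by
          have : (2 : F) * ι = 0 := by linear_combination h2
          exact (mul_eq_zero.1 this).resolve_right ι.ne_zero)
    obtain ⟨m, hm⟩ := exists_unitsMap_zpow σ
    rw [hm] at hσι
    have h4m : (4 : ℤ) ∣ m - 1 := by
      have : ι ^ (m - 1) = 1 := by rw [zpow_sub, hσι, zpow_one, mul_inv_cancel]
      rw [← orderOf_dvd_iff_zpow_eq_one, hιord] at this
      exact_mod_cast this
    obtain ⟨v, hv⟩ := h4m
    have hεγ : ht.eps γ * (γ ^ 2)⁻¹ ∈ M := by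
      have h1 := M.mul_mem (hrel γ) (M.zpow_mem (hfour γ) v)
      convert h1 using 1
      rw [hm, show m = 1 + 4 * v by omega, zpow_add, zpow_one, zpow_mul]
      have : ((γ ^ 2) ^ 2 : Fˣ) = γ ^ (4 : ℤ) := by
        rw [← pow_mul, ← zpow_natCast]; rfl
      rw [this]
      group
    suffices he : ht.eps γ ∈ M by
      have := M.mul_mem (M.inv_mem hεγ) he
      rwa [mul_inv_rev, inv_inv, inv_mul_cancel_right] at this
    rcases ht.eps_cases γ with e | e
    · rw [e]; exact M.one_mem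
    · rw [e]
      by_cases h8 : Even n
      · obtain ⟨i, hi⟩ := h8
        have h1 : (-1 : Fˣ) = ((γ ^ i) ^ 2) ^ 2 := by
          rw [← hι2, hι, ← pow_mul, ← pow_mul, ← pow_add]; congr 1; omega
        rw [h1]; exact hfour _
      · exfalso
        rw [Nat.not_even_iff_odd] at h8
        obtain ⟨i, hi⟩ := h8
        have h1 : ht.eps ι = -1 := by
          rw [hι, map_pow, e, hi, pow_add, pow_mul]; simp
        have h2 := ht.smul_eq ι
        rw [h1, show (-1 : Fˣ) * ι⁻¹ = ι by rw [← hι2, mul_inv_cancel_right]] at h2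
        have h3 : ι ^ 2 = 1 := by
          rw [pow_two]
          rcases ht.only _ h2 with e' | e' <;> have := D.inj e' <;>
            exact Units.ext (by rw [Units.val_mul, this]; simp)
        have := Nat.le_of_dvd (by norm_num) (orderOf_dvd_of_pow_eq_one h3)
        omega
  · obtain ⟨i, hi⟩ : ∃ i, Nat.card Fˣ + 2 = i * 4 := ⟨(Nat.card Fˣ + 2) / 4, by omega⟩
    have : γ ^ 2 = ((γ ^ i) ^ 2) ^ 2 := by
      rw [← pow_mul, ← pow_mul, show i * (2 * 2) = Nat.card Fˣ + 2 by omega, pow_add,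
        pow_card_eq_one', one_mul]
    rw [this]; exact hfour _

end Coords

end CfsgLib.TripleOrbits
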