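import Mathlib
import Cfsg.Agent.TripleOrbits15.Squares
import Cfsg.Agent.ZassAbelian.Recognise

/-!
The normal subgroup `PSL(2, F)`.
-/

set_option autoImplicit false
set_option linter.unusedSectionVars false

open MulAction Matrix
open scoped MatrixGroups

namespace CfsgLib.TripleOrbits

namespace Coords

universe u v

variable {G : Type u} {Ω : Type v} {F : Type} [Group G] [MulAction G Ω] [Field F]
  (D : Coords G Ω F) [Finite G] [Finite F]

/-- The projective line and the points. -/
noncomputable def line : OnePoint F ≃ Ω :=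
  Equiv.ofBijective (fun x => x.elim D.i D.pt) ⟨by
    intro x y h
    cases x with
    | infty =>
      cases y with
      | infty => rfl
      | coe b => exact absurd (Eq.symm h) (D.ne b)
    | coe a =>
      cases y with
      | infty => exact absurd h (D.ne a)
      | coe b => exact congrArg _ (D.inj h), fun y => by
    rcases D.eq_or_pt y with h | ⟨x, hx⟩
    · exact ⟨OnePoint.infty, h.symm⟩
    · exact ⟨(x : OnePoint F), hx⟩⟩

theorem line_infty : D.line (OnePoint.infty : OnePoint F) = D.i := rfl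

theorem line_coe (x : F) : D.line (x : OnePoint F) = D.pt x := rfl

/-- The action in coordinates. -/
noncomputable def toPerm : G →* Equiv.Perm (OnePoint F) :=
  D.line.symm.permCongrHom.toMonoidHom.comp (MulAction.toPermHom G Ω)

theorem line_toPerm (g : G) (x : OnePoint F) : D.line (D.toPerm g x) = g • D.line x := by
  show D.line (D.line.symm (g • D.line.symm.symm x)) = _
  rw [Equiv.apply_symm_apply, Equiv.symm_symm]

theorem toPerm_injective : Function.Injective D.toPerm := by
  haveI : FaithfulSMul G Ω := ⟨fun {g g'} h => by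
    refine (inv_mul_eq_one.1 (D.faithful (g'⁻¹ * g) fun y => ?_)).symm
    rw [mul_smul, h, inv_smul_smul]⟩
  exact D.line.symm.permCongrHom.injective.comp MulAction.toPerm_injective

theorem toPerm_eq [DecidableEq F] {g : G} {P : PGL(2, F)}
    (h : ∀ x, g • D.line x = D.line (P • x)) :
    D.toPerm g = CfsgLib.Dickson.pglToPerm P :=
  Equiv.ext fun x => D.line.injective (by rw [D.line_toPerm, h x]; rfl)

/-- The normal subgroup `PSL(2, F)`. -/
theorem exists_psl (hq : Nat.card Fˣ % 4 = 2) (τ : F → G) (hτi : ∀ a, τ a • D.i = D.i)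
    (hτ : ∀ a x, τ a • D.pt x = D.pt (x + a)) (H : Subgroup G) [H.Normal] (hτH : ∀ a, τ a ∈ H) :
    ∃ N : Subgroup G, N ≤ H ∧ N.Normal ∧
      Nonempty (N ≃* Matrix.ProjectiveSpecialLinearGroup (Fin 2) F) := by
  classical
  obtain ⟨t, ht⟩ := D.exists_swap
  have htinv : ∀ a : F, a ≠ 0 → t • D.pt a = D.pt a⁻¹ := fun a ha => by
    simpa using ht.inversion hq (Units.mk0 a ha)
  set s : Set G := Set.range τ ∪ Set.range fun a => t * τ a * t with hs
  set N := Subgroup.closure s with hN
  have hτN : ∀ a, τ a ∈ N := fun a => Subgroup.subset_closure (Or.inl ⟨a, rfl⟩)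
  have htN : ∀ a, t * τ a * t ∈ N := fun a => Subgroup.subset_closure (Or.inr ⟨a, rfl⟩)
  have hNH : N ≤ H := by
    refine (Subgroup.closure_le _).2 ?_
    rintro _ (⟨a, rfl⟩ | ⟨a, rfl⟩)
    · exact hτH a
    · have := ‹H.Normal›.conj_mem _ (hτH a) t
      rwa [ht.inv_eq] at this
  -- the translations are normalised by `X`
  have hXτ : ∀ x ∈ D.X, ∀ a, ∃ b, x * τ a * x⁻¹ = τ b := by
    intro x hx a
    obtain ⟨c, σ, h⟩ := D.exists_acts hx
    have hx' : x * τ a = τ ((c : F) * σ a) * x := D.eq_of_pt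
      (by rw [mul_smul, hτi, hx.1]) (by rw [mul_smul, hx.1, hτi]) fun z => by
        rw [mul_smul, mul_smul, hτ, h.2, h.2, hτ, map_add, mul_add]
    exact ⟨_, by rw [hx', mul_inv_cancel_right]⟩
  let P : Subgroup G :=
    { carrier := {g | ∀ n ∈ N, g * n * g⁻¹ ∈ N}
      one_mem' := fun n hn => by simpa using hn
      mul_mem' := fun {a b} ha hb n hn => by
        have := ha _ (hb n hn)
        simpa [mul_assoc] using this
      inv_mem' := fun {a} ha n hn => by
        -- conjugation is injective on a finite set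
        haveI : Finite N := Subtype.finite
        let f : N → N := fun m => ⟨a * m * a⁻¹, ha m m.2⟩
        have hf : Function.Injective f := fun x y h => Subtype.ext
          (mul_left_cancel (mul_right_cancel (congrArg Subtype.val h : a * x * a⁻¹ = a * y * a⁻¹)))
        obtain ⟨⟨m, hm⟩, hmm⟩ := (Finite.injective_iff_surjective.1 hf) ⟨n, hn⟩
        have e : a * m * a⁻¹ = n := congrArg Subtype.val hmm
        rw [← e]; simpa [mul_assoc] using hm }
  have hP_of : ∀ g, (∀ a, g * τ a * g⁻¹ ∈ N ∧ g * (t * τ a * t) * g⁻¹ ∈ N) → g ∈ P := by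
    intro g hg n hn
    have hle : N ≤ N.comap (MulAut.conj g).toMonoidHom := by
      refine (Subgroup.closure_le _).2 ?_
      rintro _ (⟨a, rfl⟩ | ⟨a, rfl⟩)
      · exact (hg a).1
      · exact (hg a).2
    exact hle hn
  have hPt : t ∈ P := hP_of t fun a => ⟨by rw [ht.inv_eq]; exact htN a, by
    rw [ht.inv_eq, show t * (t * τ a * t) * t = (t * t) * τ a * (t * t) by group, ht.sq, one_mul,
      mul_one]
    exact hτN a⟩
  have hPτ : ∀ b, τ b ∈ P := fun b => hP_of _ fun a =>
    ⟨N.mul_mem (N.mul_mem (hτN b) (hτN a)) (N.inv_mem (hτN b)),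
      N.mul_mem (N.mul_mem (hτN b) (htN a)) (N.inv_mem (hτN b))⟩
  have hPX : ∀ x ∈ D.X, x ∈ P := fun x hx => hP_of x fun a => ⟨by
    obtain ⟨b, hb⟩ := hXτ x hx a
    rw [hb]; exact hτN b, by
    obtain ⟨b, hb⟩ := hXτ _ (ht.conj_mem hx) a
    rw [show x * (t * τ a * t) * x⁻¹ = t * ((t * x * t) * τ a * (t * x * t)⁻¹) * t by
      simp only [_root_.mul_inv_rev, ht.inv_eq, ← mul_assoc]
      rw [ht.sq, one_mul, mul_assoc _ t t, ht.sq, mul_one], hb]
    exact htN b⟩
  have hPtop : ∀ g : G, g ∈ P := by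
    have hfix : ∀ g : G, g • D.i = D.i → g ∈ P := by
      intro g hg
      rcases D.eq_or_pt (g • D.pt 0) with h | ⟨a, ha⟩
      · exact absurd (smul_left_cancel g (h.trans hg.symm)) (D.ne 0)
      · have hx : (τ a)⁻¹ * g ∈ D.X := by
          rw [mem_X, mul_smul, mul_smul, hg, ← ha, inv_smul_eq_iff, inv_smul_eq_iff, hτi, hτ,
            zero_add]
          exact ⟨rfl, rfl⟩
        rw [show g = τ a * ((τ a)⁻¹ * g) by group]
        exact P.mul_mem (hPτ a) (hPX _ hx)
    intro g
    rcases D.eq_or_pt (g • D.i) with h | ⟨a, ha⟩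
    · exact hfix g h
    · have : (t * (τ a)⁻¹ * g) • D.i = D.i := by
        rw [mul_smul, mul_smul, ← ha, inv_smul_eq_iff.2
          (show D.pt a = τ a • D.pt 0 by rw [hτ, zero_add]), ht.at_zero]
      rw [show g = τ a * (t * (t * (τ a)⁻¹ * g)) by
        simp only [← mul_assoc]; rw [mul_assoc (τ a) t t, ht.sq, mul_one, mul_inv_cancel, one_mul]]
      exact P.mul_mem (hPτ a) (P.mul_mem hPt (hfix _ this))
  refine ⟨N, hNH, ⟨fun n hn g => hPtop g n hn⟩, ?_⟩
  -- the image in coordinates
  set Φ := (CfsgLib.Dickson.pglToPerm (K := F)).comp ProjectiveSpecialLinearGroup.toPGL with hΦ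
  have hinj : Function.Injective Φ :=
    CfsgLib.ZassAbelian.pglToPerm_injective.comp ProjectiveSpecialLinearGroup.toPGL_injective
  open CfsgLib.ZassAbelian in
  have e1 : ∀ a, D.toPerm (τ a) = Φ (QuotientGroup.mk (CfsgLib.SL2.u a)) := fun a => by
    rw [hΦ, MonoidHom.comp_apply, toPGL_u]
    exact D.toPerm_eq fun x => by
      cases x with
      | infty => rw [transl_infty, line_infty, hτi]
      | coe z => rw [transl_coe, line_coe, line_coe, hτ]
  open CfsgLib.ZassAbelian in
  have et : D.toPerm t = CfsgLib.Dickson.pglToPerm (invol (1 : Fˣ)) :=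
    D.toPerm_eq fun x => by
      cases x with
      | infty => rw [invol_infty, line_infty, line_coe, ht.at_i]
      | coe z =>
        by_cases hz : z = 0
        · subst hz; rw [invol_zero, line_infty, line_coe, ht.at_zero]
        · rw [invol_coe _ hz, line_coe, line_coe, Units.val_one, one_div, htinv z hz]
  open CfsgLib.ZassAbelian in
  have e2 : ∀ a, D.toPerm (t * τ a * t) = Φ (QuotientGroup.mk (CfsgLib.SL2.l a)) := fun a => by
    rw [map_mul, map_mul, et, e1, hΦ, MonoidHom.comp_apply, MonoidHom.comp_apply, toPGL_u,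
      toPGL_l (1 : Fˣ), Units.val_one, one_mul, map_mul, map_mul]
  have heq : N.map D.toPerm = Φ.range := by
    refine le_antisymm ?_ ?_
    · rw [hN, MonoidHom.map_closure, Subgroup.closure_le]
      rintro _ ⟨_, ⟨a, rfl⟩ | ⟨a, rfl⟩, rfl⟩
      · exact ⟨_, (e1 a).symm⟩
      · exact ⟨_, (e2 a).symm⟩
    · rintro _ ⟨g, rfl⟩
      obtain ⟨m, rfl⟩ := QuotientGroup.mk_surjective g
      suffices h : (⊤ : Subgroup SL(2, F)) ≤ (N.map D.toPerm).comap
          (Φ.comp (QuotientGroup.mk' (Subgroup.center SL(2, F)))) from h (Subgroup.mem_top m)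
      rw [← CfsgLib.SL2.U_sup_L]
      refine sup_le ?_ ?_
      · intro m hm
        obtain ⟨a, rfl⟩ := CfsgLib.SL2.mem_U.1 hm
        exact ⟨τ a, hτN a, e1 a⟩
      · intro m hm
        obtain ⟨a, rfl⟩ := CfsgLib.SL2.mem_L.1 hm
        exact ⟨_, htN a, e2 a⟩
  exact ⟨(N.equivMapOfInjective D.toPerm D.toPerm_injective).trans
    ((MulEquiv.subgroupCongr heq).trans (MonoidHom.ofInjective hinj).symm)⟩

end Coords

end CfsgLib.TripleOrbits
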