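import Mathlib
import Cfsg.Agent.HalfTransP.Classify

/-!
Normal prime power subgroups of transitive linear groups of odd degree are cyclic.
-/

set_option autoImplicit false
set_option linter.unusedSectionVars false
set_option linter.style.haveILetI false

open MulAction

namespace CfsgLib.TripleOrbits

variable {X : Type*} [Group X] [Finite X] {V : Type*} [AddCommGroup V] [Finite V]
  [DistribMulAction X V] {p k : ℕ}

theorem elem_of_card [Fact p.Prime] (hV : Nat.card V = p ^ k) (hk : k ≠ 0)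
    (htr : ∀ u v : V, u ≠ 0 → v ≠ 0 → ∃ x : X, x • u = v) (v : V) : p • v = 0 := by
  by_cases hv : v = 0
  · rw [hv, smul_zero]
  obtain ⟨w, hw⟩ := exists_prime_addOrderOf_dvd_card' (G := V) p (hV ▸ dvd_pow_self p hk)
  have hw0 : w ≠ 0 := fun h => (Fact.out : p.Prime).ne_one (by rw [← hw, h, addOrderOf_zero])
  obtain ⟨x, rfl⟩ := htr w v hw0 hv
  rw [← smul_comm, show p • w = 0 by rw [← hw]; exact addOrderOf_nsmul_eq_zero w, smul_zero]

theorem not_quaternion {Q : Type*} [Group Q] [DistribMulAction Q V] [Fact p.Prime]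
    [Module (ZMod p) V] (hp2 : p ≠ 2) (hV : Nat.card V = p ^ k) (hk : Odd k)
    (hs : ∀ v : V, v ≠ 0 → ∀ g : Q, g • v = v → g = 1) {n : ℕ} (hn : Even n) (hn0 : n ≠ 0)
    (e : Q ≃* QuaternionGroup n) : False := by
  haveI : NeZero n := ⟨hn0⟩
  haveI := Fintype.ofFinite V
  have hfr : Module.finrank (ZMod p) V = k := by
    have h := Module.card_eq_pow_finrank (K := ZMod p) (V := V)
    rw [← Nat.card_eq_fintype_card, hV, ZMod.card] at h
    exact (Nat.pow_right_injective (Fact.out : p.Prime).two_le h).symm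
  set i := e.symm (QuaternionGroup.xa 0) with hi
  set j := e.symm (QuaternionGroup.a ((n / 2 : ℕ) : ZMod (2 * n))) with hj
  have hz1 : e.symm (QuaternionGroup.a (n : ZMod (2 * n))) ≠ 1 := by
    intro h
    have h' := e.symm.injective (h.trans (map_one e.symm).symm)
    rw [QuaternionGroup.one_def, QuaternionGroup.a.injEq, ZMod.natCast_eq_zero_iff] at h'
    have := Nat.le_of_dvd (Nat.pos_of_ne_zero hn0) h'
    omega
  set z := e.symm (QuaternionGroup.a (n : ZMod (2 * n))) with hz
  have hnn : (n : ZMod (2 * n)) + n = 0 := by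
    rw [← Nat.cast_add, ZMod.natCast_eq_zero_iff, two_mul]
  have hz2 : z * z = 1 := by
    rw [hz, ← map_mul, QuaternionGroup.a_mul_a, hnn, ← QuaternionGroup.one_def, map_one]
  have hzneg : ∀ v : V, z • v = -v := by
    intro v
    by_contra h
    have h0 : v + z • v ≠ 0 := fun h' => h (eq_neg_of_add_eq_zero_right h')
    exact hz1 (hs _ h0 z (by rw [smul_add, ← mul_smul, hz2, one_smul, add_comm]))
  have hii : i * i = z := by
    rw [hi, hz, ← map_mul, QuaternionGroup.xa_mul_xa]; simp
  have hconj : j * i * j⁻¹ = i * z := by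
    rw [mul_inv_eq_iff_eq_mul, hi, hj, hz, ← map_mul, ← map_mul, ← map_mul]
    congr 1
    rw [QuaternionGroup.a_mul_xa, QuaternionGroup.xa_mul_a, QuaternionGroup.xa_mul_a]
    obtain ⟨m, hm⟩ := hn
    rw [show n / 2 = m by omega, show ((n : ℕ) : ZMod (2 * n)) = (m : ZMod (2 * n)) + m by
      rw [hm, Nat.cast_add]]
    congr 1
    have : (m : ZMod (2 * n)) + m + (m + m) = 0 := by
      rw [← Nat.cast_add, ← hm]; exact hnn
    linear_combination -this
  let ρ : Q →* (V →ₗ[ZMod p] V) := Cfsg.Agent.HalfTransP.toRep (V := V) p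
  let d : Q →* ZMod p := LinearMap.det.comp ρ
  have hdz : d z = -1 := by
    show LinearMap.det (ρ z) = -1
    have : ρ z = (-1 : ZMod p) • (LinearMap.id : V →ₗ[ZMod p] V) := LinearMap.ext fun v => by
      rw [LinearMap.smul_apply, LinearMap.id_apply]
      show z • v = _
      rw [hzneg, neg_one_smul]
    rw [this, LinearMap.det_smul, LinearMap.det_id, mul_one, hfr, hk.neg_one_pow]
  have h2 : d i * d z = d i := by
    rw [← map_mul, ← hconj, map_mul, map_mul, mul_comm (d j), mul_assoc, ← map_mul, mul_inv_cancel,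
      map_one, mul_one]
  have hi0 : d i ≠ 0 := by
    have : d i * d i⁻¹ = 1 := by rw [← map_mul, mul_inv_cancel, map_one]
    exact left_ne_zero_of_mul_eq_one this
  rw [hdz, mul_neg_one] at h2
  have h3 : (2 : ZMod p) * d i = 0 := by linear_combination -h2
  rcases mul_eq_zero.1 h3 with h | h
  · have h' : ((2 : ℕ) : ZMod p) = 0 := by simpa using h
    rw [ZMod.natCast_eq_zero_iff] at h'
    exact hp2 ((Nat.prime_dvd_prime_iff_eq Fact.out Nat.prime_two).1 h')
  · exact hi0 h

/-- A normal `s`-subgroup is cyclic, semiregular on the nonzero vectors. -/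
theorem isCyclic_normal_pSubgroup [Fact p.Prime] (hp2 : p ≠ 2) (hV : Nat.card V = p ^ k)
    (hk : Odd k) (hf : ∀ x : X, (∀ v : V, x • v = v) → x = 1)
    (htr : ∀ u v : V, u ≠ 0 → v ≠ 0 → ∃ x : X, x • u = v) {s : ℕ} [Fact s.Prime] (Q : Subgroup X)
    [hQn : Q.Normal] (hQ : IsPGroup s Q) :
    IsCyclic Q ∧ ∀ g ∈ Q, ∀ v : V, v ≠ 0 → g • v = v → g = 1 := by
  classical
  have hk0 : k ≠ 0 := fun h => by simp [h] at hk
  have hpV := elem_of_card (X := X) hV hk0 htr
  letI : Module (ZMod p) V := AddCommGroup.zmodModule hpV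
  haveI : Nontrivial V := Finite.one_lt_card_iff_nontrivial.1 (by
    rw [hV]; exact Nat.one_lt_pow hk0 (Fact.out : p.Prime).one_lt)
  -- the fixed vectors are invariant under the whole group
  have hfix : ∀ v : V, v ≠ 0 → (∀ g ∈ Q, g • v = v) → Q = ⊥ := by
    intro v hv h
    refine (Subgroup.eq_bot_iff_forall _).2 fun g hg => hf g fun w => ?_
    by_cases hw : w = 0
    · rw [hw, smul_zero]
    obtain ⟨x, rfl⟩ := htr v w hv hw
    have := h _ (hQn.conj_mem g hg x⁻¹)
    rw [inv_inv, mul_smul, mul_smul, inv_smul_eq_iff] at this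
    exact this
  have hhalf : ∀ v w : V, v ≠ 0 → w ≠ 0 →
      Nat.card (stabilizer Q v) = Nat.card (stabilizer Q w) := by
    intro v w hv hw
    obtain ⟨x, rfl⟩ := htr v w hv hw
    refine Nat.card_congr ((MulAut.conjNormal x : MulAut Q).toEquiv.subtypeEquiv fun g => ?_)
    show g • v = v ↔ ((MulAut.conjNormal x g : Q) : X) • x • v = x • v
    rw [MulAut.conjNormal_apply, mul_smul, mul_smul, inv_smul_smul]
    exact ⟨fun h => congrArg (x • ·) h, fun h => smul_left_cancel x h⟩
  by_cases hsp : s = p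
  · subst hsp
    have hfp := hQ.card_modEq_card_fixedPoints (α := V)
    have h0 : (0 : V) ∈ fixedPoints Q V := fun g => smul_zero g
    obtain ⟨v, hv, hv0⟩ : ∃ v ∈ fixedPoints Q V, v ≠ 0 := by
      by_contra h
      push Not at h
      have : fixedPoints Q V = {0} := Set.eq_singleton_iff_unique_mem.2 ⟨h0, h⟩
      rw [this, Nat.card_coe_set_eq, Set.ncard_singleton, hV,
        Nat.ModEq, Nat.mod_eq_zero_of_dvd (dvd_pow_self s hk0)] at hfp
      simp [Nat.mod_eq_of_lt (Fact.out : s.Prime).one_lt] at hfp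
    have hbot := hfix v hv0 fun g hg => hv ⟨g, hg⟩
    subst hbot
    exact ⟨inferInstance, fun g hg _ _ _ => Subgroup.mem_bot.1 hg⟩
  have hsr : ∀ v : V, v ≠ 0 → ∀ g : Q, g • v = v → g = 1 := by
    by_contra h
    push Not at h
    obtain ⟨v, hv, g, hg, hg1⟩ := h
    have D : Cfsg.Agent.HalfTransP.Data s p Q V :=
      { hG := hQ, hp := Fact.out, hq := Fact.out, hpq := hsp, hqV := hpV, hk := hhalf
        hns := ⟨g, hg1, v, hv, hg⟩
        hfaith := fun g hg => Subtype.ext (hf g hg) }
    have hpow : ∀ a, Nat.card V = p ^ a → a = k := fun a ha =>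
      Nat.pow_right_injective (Fact.out : p.Prime).two_le (ha.symm.trans hV)
    rcases D.classify with ⟨h, -⟩ | ⟨h, -⟩ | ⟨h, h3, -⟩
    · exact absurd (hpow 2 h ▸ hk) (by decide)
    · exact absurd (hpow 2 h ▸ hk) (by decide)
    · subst h3
      exact absurd (hpow 4 (by rw [h]; norm_num) ▸ hk) (by decide)
  refine ⟨?_, fun g hg v hv hgv => congrArg Subtype.val (hsr v hv ⟨g, hg⟩ hgv)⟩
  rcases Cfsg.Agent.HalfTransP.semiregular_case (q := p) hQ hsr with h | ⟨n, ⟨e⟩⟩
  · exact h
  by_cases hn1 : n = 1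
  · subst hn1
    haveI : IsCyclic (QuaternionGroup 1) := by
      refine isCyclic_of_orderOf_eq_card (QuaternionGroup.xa 0) ?_
      rw [QuaternionGroup.orderOf_xa, Nat.card_eq_fintype_card, QuaternionGroup.card]
    exact e.isCyclic.2 inferInstance
  have hn0 : n ≠ 0 := by
    rintro rfl
    haveI : Finite (QuaternionGroup 0) := Finite.of_equiv _ e.toEquiv
    haveI : Infinite (ZMod (2 * 0)) := inferInstanceAs (Infinite ℤ)
    exact (Infinite.not_finite (α := ZMod (2 * 0))) (Finite.of_injective QuaternionGroup.a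
      fun a b h => QuaternionGroup.a.inj h)
  refine (not_quaternion hp2 hV hk hsr ?_ hn0 e).elim
  haveI : NeZero n := ⟨hn0⟩
  obtain ⟨a, ha⟩ := IsPGroup.iff_card.1 hQ
  rw [Nat.card_congr e.toEquiv, Nat.card_eq_fintype_card, QuaternionGroup.card] at ha
  obtain rfl : s = 2 := by
    rcases Nat.eq_zero_or_pos a with rfl | hapos
    · simp at ha
    · exact ((Nat.prime_dvd_prime_iff_eq Nat.prime_two Fact.out).1
        (Nat.prime_two.dvd_of_dvd_pow (n := a) (ha ▸ ⟨2 * n, by ring⟩))).symm
  rw [even_iff_two_dvd]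
  rcases a with _ | _ | _ | a
  · omega
  · omega
  · omega
  · exact ⟨2 ^ a, by rw [pow_succ, pow_succ, pow_succ] at ha; omega⟩

end CfsgLib.TripleOrbits
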