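import Mathlib
import Cfsg.Agent.TripleOrbits15.Field

/-!
The field of scalars of an abelian normal subgroup of a transitive linear group.
-/

set_option autoImplicit false
set_option linter.unusedSectionVars false

namespace CfsgLib.TripleOrbits

/-- A type with `n` elements and no operations. -/
def Carrier (n : ℕ) : Type := Fin n

/-- A field acting on `V` whose automorphisms record the conjugation by `X`, containing the action
of `C` and generated by it. -/
structure Scalars (X : Type*) [Group X] (V : Type*) [AddCommGroup V] [DistribMulAction X V]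
    (C : Subgroup X) (F : Type) [Field F] where
  ι : F →+* AddMonoid.End V
  inj : ∀ f : F, ∀ v : V, v ≠ 0 → ι f v = 0 → f = 0
  sigma : X →* (F ≃+* F)
  twist : ∀ (x : X) (f : F) (v : V), x • ι f v = ι (sigma x f) (x • v)
  scal : ∀ c ∈ C, ∃ f : F, f ≠ 0 ∧ ∀ v : V, c • v = ι f v
  span : ∀ σ : F ≃+* F, (∀ c ∈ C, ∀ f : F, (∀ v : V, c • v = ι f v) → σ f = f) → σ = 1

variable {X : Type*} [Group X] [Finite X] {V : Type*} [AddCommGroup V] [Finite V]
  [DistribMulAction X V] {C : Subgroup X}

theorem exists_scalars [C.Normal] [Nontrivial V] (hC : ∀ a ∈ C, ∀ b ∈ C, a * b = b * a)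
    (htr : ∀ u v : V, u ≠ 0 → v ≠ 0 → ∃ x : X, x • u = v) :
    ∃ (F : Type) (_ : Field F) (_ : Fintype F), Nonempty (Scalars X V C F) := by
  classical
  haveI : Finite (AddMonoid.End V) :=
    Finite.of_injective (fun g => ⇑g) DFunLike.coe_injective
  letI iCR : CommRing (endRing (V := V) C) :=
    { (endRing (V := V) C).toRing with
      mul_comm := fun a b => Subtype.ext (endRing_comm hC a.2 b.2) }
  obtain ⟨v₀, hv₀⟩ := exists_ne (0 : V)
  haveI : Nontrivial (endRing (V := V) C) :=
    ⟨⟨0, 1, fun h => hv₀ (DFunLike.congr_fun (congrArg Subtype.val h) v₀).symm⟩⟩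
  haveI : NoZeroDivisors (endRing (V := V) C) := ⟨fun {a b} h => by
    by_cases hb : b = 0
    · exact Or.inr hb
    obtain ⟨v, hv⟩ : ∃ v, b.1 v ≠ 0 := by
      by_contra hc
      push Not at hc
      exact hb (Subtype.ext (AddMonoidHom.ext hc))
    exact Or.inl (Subtype.ext (endRing_injective hC htr a.2 hv
      (DFunLike.congr_fun (congrArg Subtype.val h) v)))⟩
  haveI : IsDomain (endRing (V := V) C) := NoZeroDivisors.to_isDomain _
  letI iF : Field (endRing (V := V) C) :=
    (Finite.isField_of_domain (endRing (V := V) C)).toField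
  obtain ⟨n, ⟨e⟩⟩ := Finite.exists_equiv_fin (endRing (V := V) C)
  let e₀ : Carrier n ≃ endRing (V := V) C := e.symm
  haveI : Finite (Carrier n) := Finite.of_equiv _ e₀.symm
  letI : Field (Carrier n) := e₀.field
  let e' : Carrier n ≃+* endRing (V := V) C := e₀.ringEquiv
  -- conjugation
  let cj : X → endRing (V := V) C →+* endRing (V := V) C := fun x =>
    (conjEnd x).restrict _ _ fun _ hf => conjEnd_mem x hf
  have hcj : ∀ x y f, cj (x * y) f = cj x (cj y f) := fun x y f =>
    Subtype.ext (AddMonoidHom.ext fun v => by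
      show (x * y) • f.1 ((x * y)⁻¹ • v) = x • y • f.1 (y⁻¹ • x⁻¹ • v)
      rw [mul_inv_rev, mul_smul, mul_smul])
  have hcj1 : ∀ f, cj 1 f = f := fun f => Subtype.ext (AddMonoidHom.ext fun v => by
    show (1 : X) • f.1 ((1 : X)⁻¹ • v) = f.1 v
    rw [inv_one, one_smul, one_smul])
  let sig : X → (Carrier n ≃+* Carrier n) := fun x => e'.trans ((RingEquiv.ofRingHom (cj x) (cj x⁻¹)
    (RingHom.ext fun f => by rw [RingHom.comp_apply, ← hcj, mul_inv_cancel, hcj1]; rfl)
    (RingHom.ext fun f => by rw [RingHom.comp_apply, ← hcj, inv_mul_cancel, hcj1]; rfl)).trans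
      e'.symm)
  have hsig : ∀ x f, e' (sig x f) = cj x (e' f) := fun x f => e'.apply_symm_apply _
  refine ⟨Carrier n, inferInstance, Fintype.ofFinite _, ⟨{
    ι := (endRing (V := V) C).subtype.comp e'.toRingHom
    inj := fun f v hv h => e'.injective ((Subtype.ext (endRing_injective hC htr (e' f).2 hv h)
      : e' f = 0).trans (map_zero e').symm)
    sigma := MonoidHom.mk' sig fun x y => RingEquiv.ext fun f => e'.injective (by
      rw [hsig]
      show _ = e' (sig x (sig y f))
      rw [hsig, hsig, hcj])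
    twist := fun x f v => by
      show x • (e' f).1 v = (e' (sig x f)).1 (x • v)
      rw [hsig]
      show _ = x • (e' f).1 (x⁻¹ • x • v)
      rw [inv_smul_smul]
    scal := fun c hc => ⟨e'.symm ⟨act c, gen_mem C c hc⟩, fun h => hv₀ (by
      have h' : (⟨act c, gen_mem C c hc⟩ : endRing (V := V) C) = 0 :=
        e'.symm.injective (h.trans (map_zero e'.symm).symm)
      exact (smul_eq_zero_iff_eq c).1 (DFunLike.congr_fun (congrArg Subtype.val h') v₀)),
      fun v => by
        show c • v = (e' (e'.symm _)).1 v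
        rw [e'.apply_symm_apply]; rfl⟩
    span := fun σ hσ => RingEquiv.ext fun f => ?_ }⟩⟩
  have key : ∀ g, g ∈ endRing (V := V) C → ∀ h : g ∈ endRing (V := V) C,
      σ (e'.symm ⟨g, h⟩) = e'.symm ⟨g, h⟩ := by
    intro g hg
    induction hg using Subring.closure_induction with
    | mem g hg =>
      obtain ⟨c, rfl⟩ := hg
      intro h
      refine hσ c c.2 _ fun v => ?_
      show (c : X) • v = (e' (e'.symm _)).1 v
      rw [e'.apply_symm_apply]; rfl
    | zero =>
      intro h
      rw [show (⟨0, h⟩ : endRing (V := V) C) = 0 from rfl, map_zero, map_zero]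
    | one =>
      intro h
      rw [show (⟨1, h⟩ : endRing (V := V) C) = 1 from rfl, map_one, map_one]
    | add a b ha hb iha ihb =>
      intro h
      rw [show (⟨a + b, h⟩ : endRing (V := V) C) = ⟨a, ha⟩ + ⟨b, hb⟩ from rfl, map_add, map_add,
        iha ha, ihb hb]
    | neg a ha iha =>
      intro h
      rw [show (⟨-a, h⟩ : endRing (V := V) C) = -⟨a, ha⟩ from rfl, map_neg, map_neg, iha ha]
    | mul a b ha hb iha ihb =>
      intro h
      rw [show (⟨a * b, h⟩ : endRing (V := V) C) = ⟨a, ha⟩ * ⟨b, hb⟩ from rfl, map_mul, map_mul,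
        iha ha, ihb hb]
  have := key _ (e' f).2 (e' f).2
  rw [show (⟨(e' f).1, (e' f).2⟩ : endRing (V := V) C) = e' f from rfl, e'.symm_apply_apply] at this
  exact this

namespace Scalars

variable {F : Type} [Field F] [Fintype F] (S : Scalars X V C F)

include S in
/-- The order of `V` is a power of the order of the field. -/
theorem exists_card_pow : ∃ a, Nat.card V = Nat.card F ^ a := by
  letI := Module.compHom V S.ι
  haveI := Fintype.ofFinite V
  exact ⟨Module.finrank F V, by
    rw [Nat.card_eq_fintype_card, Nat.card_eq_fintype_card, Module.card_eq_pow_finrank (K := F)]⟩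

theorem sigma_eq_one [Nontrivial V] {x : X} (hx : ∀ c ∈ C, x * c = c * x) : S.sigma x = 1 := by
  refine S.span _ fun c hc f hf => ?_
  by_contra hne
  obtain ⟨v, hv⟩ := exists_ne (0 : V)
  refine hne (sub_eq_zero.1 (S.inj _ (x • v) (fun h => hv ((smul_eq_zero_iff_eq x).1 h)) ?_))
  rw [map_sub]
  show S.ι (S.sigma x f) (x • v) - S.ι f (x • v) = 0
  rw [← S.twist, ← hf, ← hf, ← mul_smul, ← mul_smul, hx c hc, sub_self]

end Scalars

end CfsgLib.TripleOrbits
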